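import Mathlib

set_option autoImplicit false

namespace Cfsg.Agent.Lib.Helper58

open Module in
/-- A linear automorphism carrying one linearly independent family to another. -/
theorem exists_equiv_of_linIndep {K V ι : Type*} [Field K] [AddCommGroup V] [Module K V]
    [FiniteDimensional K V] (v v' : ι → V) (hv : LinearIndependent K v)
    (hv' : LinearIndependent K v') : ∃ g : V ≃ₗ[K] V, ∀ i, g (v i) = v' i := by
  let b := Basis.span hv
  let b' := Basis.span hv'
  let f := b.equiv b' (Equiv.refl ι)
  obtain ⟨g, hg⟩ := Submodule.exists_linearEquiv_restrict_eq f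
  refine ⟨g, fun i => ?_⟩
  have h1 := hg (b i)
  have h2 : f (b i) = b' i := by
    simp [f, Basis.equiv_apply]
  rw [h2] at h1
  have e1 : ((b i : Submodule.span K (Set.range v)) : V) = v i := by
    simp [b, Basis.span_apply]
  have e2 : ((b' i : Submodule.span K (Set.range v')) : V) = v' i := by
    simp [b', Basis.span_apply]
  rw [e1, e2] at h1
  exact h1.symm

/-- A linear automorphism carrying a nonzero vector to a nonzero vector. -/
theorem exists_equiv_of_ne_zero {K V : Type*} [Field K] [AddCommGroup V] [Module K V]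
    [FiniteDimensional K V] (x x' : V) (hx : x ≠ 0) (hx' : x' ≠ 0) :
    ∃ g : V ≃ₗ[K] V, g x = x' := by
  have h1 : LinearIndependent K (fun _ : Unit => x) := linearIndependent_unique_iff.mpr hx
  have h2 : LinearIndependent K (fun _ : Unit => x') := linearIndependent_unique_iff.mpr hx'
  obtain ⟨g, hg⟩ := exists_equiv_of_linIndep _ _ h1 h2
  exact ⟨g, hg ()⟩

theorem two_ne_zero_of_ne_two (p : ℕ) [Fact p.Prime] (hp : p ≠ 2) : (2 : ZMod p) ≠ 0 := by
  intro h
  have h' : ((2 : ℕ) : ZMod p) = 0 := by exact_mod_cast h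
  rw [ZMod.natCast_eq_zero_iff] at h'
  exact hp ((Nat.prime_dvd_prime_iff_eq (Fact.out : p.Prime) Nat.prime_two).mp h')

/-- A map which agrees with an affine map on every triple of points is affine (odd `p`). -/
theorem linear_of_triples {p : ℕ} [Fact p.Prime] (hp : p ≠ 2) {V : Type*} [AddCommGroup V]
    [Module (ZMod p) V] (σ : V → V)
    (h : ∀ t : Fin 3 → V, ∃ (A : V ≃ₗ[ZMod p] V) (b : V), ∀ i, σ (t i) = A (t i) + b) :
    ∃ L : V →ₗ[ZMod p] V, ∀ x, σ x = L x + σ 0 := by
  have comb : ∀ (x y : V) (c : ZMod p), σ ((1 - c) • x + c • y) = (1 - c) • σ x + c • σ y := by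
    intro x y c
    obtain ⟨A, b, hA⟩ := h ![x, y, (1 - c) • x + c • y]
    have h0 : σ x = A x + b := hA 0
    have h1 : σ y = A y + b := hA 1
    have h2 : σ ((1 - c) • x + c • y) = A ((1 - c) • x + c • y) + b := hA 2
    rw [h2, h0, h1, map_add, map_smul, map_smul]
    module
  have hsmul : ∀ (c : ZMod p) (y : V), σ (c • y) - σ 0 = c • (σ y - σ 0) := by
    intro c y
    have := comb 0 y c
    rw [smul_zero, zero_add] at this
    rw [this]
    module
  have h2 := two_ne_zero_of_ne_two p hp
  have hadd : ∀ x y : V, σ (x + y) - σ 0 = (σ x - σ 0) + (σ y - σ 0) := by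
    intro x y
    set c : ZMod p := 2⁻¹ with hc_def
    have hc : (2 : ZMod p) * c = 1 := mul_inv_cancel₀ h2
    have hc1 : 1 - c = c := by linear_combination (-1 : ZMod p) * hc
    have e1 : x + y = (2 : ZMod p) • ((1 - c) • x + c • y) := by
      rw [hc1, ← smul_add, smul_smul, hc, one_smul]
    have e2 := hsmul 2 ((1 - c) • x + c • y)
    rw [← e1, comb x y c, hc1] at e2
    rw [e2, smul_sub, smul_add, smul_smul, smul_smul, hc, one_smul, one_smul, two_smul]
    abel
  refine ⟨{ toFun := fun x => σ x - σ 0
            map_add' := hadd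
            map_smul' := fun c y => hsmul c y }, fun x => ?_⟩
  simp

end Cfsg.Agent.Lib.Helper58
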