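import Mathlib

set_option autoImplicit false

/-!
Counting lemmas for the bound `k(GL_n(q)) ≤ q ^ n`: tuples of monic polynomials with non-zero
constant term, weighted degree `n`.
-/

namespace Cfsg.Agent.Lib.Helper58.GLCount

open Finset

theorem geom_tel (x : ℚ) (M : ℕ) (hM : 1 ≤ M) :
    ∑ m ∈ Ico 1 M, x ^ m * (1 - x) + x ^ M = x := by
  induction M, hM using Nat.le_induction with
  | base => simp
  | succ M hM ih =>
    rw [Finset.sum_Ico_succ_top hM]
    have h : x ^ M * (1 - x) + x ^ (M + 1) = x ^ M := by ring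
    linarith

theorem key_sum (x : ℚ) (hx0 : 0 ≤ x) (M : ℕ) (β : ℕ → ℚ)
    (h1 : ∀ m, 1 ≤ m → m < M → β m ≤ 1 - x) (h2 : β M ≤ 1) :
    ∑ m ∈ Ico 1 (M + 1), x ^ m * β m ≤ x := by
  rcases Nat.eq_zero_or_pos M with rfl | hM
  · simpa using hx0
  · rw [Finset.sum_Ico_succ_top hM]
    have hA : ∑ m ∈ Ico 1 M, x ^ m * β m ≤ ∑ m ∈ Ico 1 M, x ^ m * (1 - x) := by
      apply Finset.sum_le_sum
      intro m hm
      rw [Finset.mem_Ico] at hm
      exact mul_le_mul_of_nonneg_left (h1 m hm.1 hm.2) (pow_nonneg hx0 m)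
    have hB : x ^ M * β M ≤ x ^ M := by
      calc x ^ M * β M ≤ x ^ M * 1 := mul_le_mul_of_nonneg_left h2 (pow_nonneg hx0 M)
        _ = x ^ M := mul_one _
    have := geom_tel x M hM
    linarith

/-- the inductive step of the bound `q ^ N * c_N(n) ≤ (q ^ N - 1) * q ^ n` -/
theorem step_bound (q N : ℕ) (hq : 2 ≤ q) (a τ τ' : ℕ → ℕ)
    (ha0 : a 0 ≤ 1) (ha : ∀ m, 1 ≤ m → q * a m ≤ (q - 1) * q ^ m)
    (h0 : τ 0 ≤ 1) (hτ : ∀ n, 1 ≤ n → q ^ N * τ n ≤ (q ^ N - 1) * q ^ n)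
    (hrec : ∀ n, τ' n ≤ ∑ m ∈ range (n / (N + 1) + 1), a m * τ (n - (N + 1) * m)) :
    ∀ n, 1 ≤ n → q ^ (N + 1) * τ' n ≤ (q ^ (N + 1) - 1) * q ^ n := by
  intro n hn
  have hQ : (1 : ℚ) < (q : ℚ) := by exact_mod_cast (by omega : 1 < q)
  have hQ0 : (0 : ℚ) < (q : ℚ) := by linarith
  obtain ⟨x, hx⟩ : ∃ x : ℚ, x = 1 / (q : ℚ) ^ N := ⟨_, rfl⟩
  have hQN : (1 : ℚ) ≤ (q : ℚ) ^ N := one_le_pow₀ hQ.le
  have hQNpos : (0 : ℚ) < (q : ℚ) ^ N := by positivity
  have hx0 : 0 < x := by rw [hx]; positivity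
  have hx1 : x ≤ 1 := by rw [hx, div_le_one hQNpos]; exact hQN
  have hxQ : x * (q : ℚ) ^ N = 1 := by rw [hx]; field_simp
  have hb : ∀ k, 1 ≤ k → (τ k : ℚ) ≤ (1 - x) * (q : ℚ) ^ k := by
    intro k hk
    have h' : ((q ^ N * τ k : ℕ) : ℚ) ≤ (((q ^ N - 1) * q ^ k : ℕ) : ℚ) := Nat.cast_le.2 (hτ k hk)
    rw [Nat.cast_mul, Nat.cast_mul, Nat.cast_sub (Nat.one_le_pow _ _ (by omega)), Nat.cast_pow,
      Nat.cast_pow, Nat.cast_one] at h'
    have h2 : (q : ℚ) ^ N * (τ k : ℚ) ≤ (q : ℚ) ^ N * ((1 - x) * (q : ℚ) ^ k) := by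
      calc (q : ℚ) ^ N * (τ k : ℚ) ≤ ((q : ℚ) ^ N - 1) * (q : ℚ) ^ k := h'
        _ = ((q : ℚ) ^ N - x * (q : ℚ) ^ N) * (q : ℚ) ^ k := by rw [hxQ]
        _ = (q : ℚ) ^ N * ((1 - x) * (q : ℚ) ^ k) := by ring
    exact le_of_mul_le_mul_left h2 hQNpos
  have hb1 : ∀ k, (τ k : ℚ) ≤ (q : ℚ) ^ k := by
    intro k
    rcases Nat.eq_zero_or_pos k with rfl | hk
    · simpa using (by exact_mod_cast h0 : (τ 0 : ℚ) ≤ 1)
    · have h1 := hb k hk
      have h3 : (0 : ℚ) < (q : ℚ) ^ k := by positivity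
      nlinarith
  have hα : ∀ m, 1 ≤ m → (a m : ℚ) ≤ (1 - 1 / (q : ℚ)) * (q : ℚ) ^ m := by
    intro m hm
    have h' : ((q * a m : ℕ) : ℚ) ≤ (((q - 1) * q ^ m : ℕ) : ℚ) := Nat.cast_le.2 (ha m hm)
    rw [Nat.cast_mul, Nat.cast_mul, Nat.cast_sub (by omega), Nat.cast_pow, Nat.cast_one] at h'
    have h2 : (q : ℚ) * (a m : ℚ) ≤ (q : ℚ) * ((1 - 1 / (q : ℚ)) * (q : ℚ) ^ m) := by
      calc (q : ℚ) * (a m : ℚ) ≤ ((q : ℚ) - 1) * (q : ℚ) ^ m := h'
        _ = (q : ℚ) * ((1 - 1 / (q : ℚ)) * (q : ℚ) ^ m) := by field_simp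
    exact le_of_mul_le_mul_left h2 hQ0
  obtain ⟨M, hM⟩ : ∃ M, M = n / (N + 1) := ⟨_, rfl⟩
  have hMn : ∀ m, m ≤ M → (N + 1) * m ≤ n := by
    intro m hm
    have h1 : (N + 1) * M ≤ n := by rw [hM]; exact Nat.mul_div_le n (N + 1)
    calc (N + 1) * m ≤ (N + 1) * M := Nat.mul_le_mul_left _ hm
      _ ≤ n := h1
  obtain ⟨β, hβ⟩ : ∃ β : ℕ → ℚ,
      β = fun m => (τ (n - (N + 1) * m) : ℚ) / (q : ℚ) ^ (n - (N + 1) * m) := ⟨_, rfl⟩
  have hβ1 : ∀ m, 1 ≤ m → m < M → β m ≤ 1 - x := by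
    intro m hm1 hmM
    have hk : 1 ≤ n - (N + 1) * m := by
      have h2 := hMn (m + 1) (by omega)
      have h3 : (N + 1) * (m + 1) = (N + 1) * m + (N + 1) := by ring
      omega
    rw [hβ]
    simp only
    rw [div_le_iff₀ (by positivity)]
    exact hb _ hk
  have hβM : ∀ m, β m ≤ 1 := by
    intro m
    rw [hβ]
    simp only
    rw [div_le_one (by positivity)]
    exact hb1 _
  have hβ0 : ∀ m, 0 ≤ β m := by
    intro m
    rw [hβ]
    simp only
    positivity
  have hy : (0 : ℚ) ≤ 1 - 1 / (q : ℚ) := by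
    rw [sub_nonneg, div_le_one hQ0]; exact hQ.le
  have hterm : ∀ m, 1 ≤ m → m ≤ M → ((a m * τ (n - (N + 1) * m) : ℕ) : ℚ) ≤
      (q : ℚ) ^ n * ((1 - 1 / (q : ℚ)) * (x ^ m * β m)) := by
    intro m hm1 hmM
    have hle := hMn m hmM
    have hsplit : (q : ℚ) ^ n =
        (q : ℚ) ^ m * ((q : ℚ) ^ N) ^ m * (q : ℚ) ^ (n - (N + 1) * m) := by
      rw [← pow_mul, ← pow_add, ← pow_add]
      congr 1
      have h3 : (N + 1) * m = m + N * m := by ring
      omega
    have hτeq : (τ (n - (N + 1) * m) : ℚ) = β m * (q : ℚ) ^ (n - (N + 1) * m) := by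
      rw [hβ]
      simp only
      field_simp
    have hxm : x ^ m * ((q : ℚ) ^ N) ^ m = 1 := by
      rw [← mul_pow, hxQ, one_pow]
    have h1 := hα m hm1
    have hk0 : (0 : ℚ) ≤ β m * (q : ℚ) ^ (n - (N + 1) * m) :=
      mul_nonneg (hβ0 m) (by positivity)
    rw [Nat.cast_mul, hτeq, hsplit]
    calc (a m : ℚ) * (β m * (q : ℚ) ^ (n - (N + 1) * m))
        ≤ ((1 - 1 / (q : ℚ)) * (q : ℚ) ^ m) * (β m * (q : ℚ) ^ (n - (N + 1) * m)) :=
          mul_le_mul_of_nonneg_right h1 hk0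
      _ = (q : ℚ) ^ m * (x ^ m * ((q : ℚ) ^ N) ^ m) * (q : ℚ) ^ (n - (N + 1) * m) *
            ((1 - 1 / (q : ℚ)) * β m) := by rw [hxm]; ring
      _ = (q : ℚ) ^ m * ((q : ℚ) ^ N) ^ m * (q : ℚ) ^ (n - (N + 1) * m) *
            ((1 - 1 / (q : ℚ)) * (x ^ m * β m)) := by ring
  have hsum : (τ' n : ℚ) ≤ (q : ℚ) ^ n * ((1 - x) + (1 - 1 / (q : ℚ)) * x) := by
    have h1 : (τ' n : ℚ) ≤
        ((∑ m ∈ range (n / (N + 1) + 1), a m * τ (n - (N + 1) * m) : ℕ) : ℚ) :=
      Nat.cast_le.2 (hrec n)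
    rw [← hM, Nat.cast_sum, Finset.range_eq_Ico, Finset.sum_eq_sum_Ico_succ_bot (by omega)] at h1
    have hfirst : ((a 0 * τ (n - (N + 1) * 0) : ℕ) : ℚ) ≤ (q : ℚ) ^ n * (1 - x) := by
      rw [mul_zero, Nat.sub_zero, Nat.cast_mul]
      have ha0' : (a 0 : ℚ) ≤ 1 := by exact_mod_cast ha0
      have hτn := hb n hn
      have hτ0 : (0 : ℚ) ≤ τ n := Nat.cast_nonneg _
      nlinarith
    have hrest : ∑ m ∈ Ico (0 + 1) (M + 1), ((a m * τ (n - (N + 1) * m) : ℕ) : ℚ)
        ≤ (q : ℚ) ^ n * ((1 - 1 / (q : ℚ)) * x) := by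
      calc ∑ m ∈ Ico (0 + 1) (M + 1), ((a m * τ (n - (N + 1) * m) : ℕ) : ℚ)
          ≤ ∑ m ∈ Ico (0 + 1) (M + 1),
              (q : ℚ) ^ n * ((1 - 1 / (q : ℚ)) * (x ^ m * β m)) := by
            apply Finset.sum_le_sum
            intro m hm
            rw [Finset.mem_Ico] at hm
            exact hterm m (by omega) (by omega)
        _ = (q : ℚ) ^ n * ((1 - 1 / (q : ℚ)) * ∑ m ∈ Ico 1 (M + 1), x ^ m * β m) := by
            rw [Finset.mul_sum, Finset.mul_sum]
        _ ≤ (q : ℚ) ^ n * ((1 - 1 / (q : ℚ)) * x) := by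
            have hk := key_sum x hx0.le M β hβ1 (hβM M)
            exact mul_le_mul_of_nonneg_left (mul_le_mul_of_nonneg_left hk hy) (by positivity)
    have h5 : (q : ℚ) ^ n * ((1 - x) + (1 - 1 / (q : ℚ)) * x) =
        (q : ℚ) ^ n * (1 - x) + (q : ℚ) ^ n * ((1 - 1 / (q : ℚ)) * x) := by ring
    rw [h5]
    linarith
  have hfinal : ((q ^ (N + 1) * τ' n : ℕ) : ℚ) ≤ (((q ^ (N + 1) - 1) * q ^ n : ℕ) : ℚ) := by
    rw [Nat.cast_mul, Nat.cast_mul, Nat.cast_sub (Nat.one_le_pow _ _ (by omega)), Nat.cast_pow,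
      Nat.cast_pow, Nat.cast_one]
    have h6 : (q : ℚ) ^ (N + 1) * ((q : ℚ) ^ n * ((1 - x) + (1 - 1 / (q : ℚ)) * x)) =
        ((q : ℚ) ^ (N + 1) - 1) * (q : ℚ) ^ n := by
      have h7 : (q : ℚ) ^ (N + 1) * ((1 - x) + (1 - 1 / (q : ℚ)) * x) = (q : ℚ) ^ (N + 1) - 1 := by
        have h8 : (q : ℚ) ^ (N + 1) * x = (q : ℚ) := by
          rw [pow_succ, mul_comm ((q : ℚ) ^ N) (q : ℚ), mul_assoc, mul_comm ((q : ℚ) ^ N) x, hxQ,
            mul_one]
        have h9 : (q : ℚ) ^ (N + 1) * ((1 - x) + (1 - 1 / (q : ℚ)) * x) =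
            (q : ℚ) ^ (N + 1) - (q : ℚ) ^ (N + 1) * x * (1 / (q : ℚ)) := by ring
        rw [h9, h8]
        field_simp
      calc (q : ℚ) ^ (N + 1) * ((q : ℚ) ^ n * ((1 - x) + (1 - 1 / (q : ℚ)) * x))
          = ((q : ℚ) ^ (N + 1) * ((1 - x) + (1 - 1 / (q : ℚ)) * x)) * (q : ℚ) ^ n := by ring
        _ = ((q : ℚ) ^ (N + 1) - 1) * (q : ℚ) ^ n := by rw [h7]
    rw [← h6]
    exact mul_le_mul_of_nonneg_left hsum (by positivity)
  exact_mod_cast hfinal

open Polynomial

section poly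

variable {F : Type*} [Field F] [Fintype F]

/-- the monic polynomial of degree `m` with lower coefficients `c` -/
noncomputable def mkPoly (m : ℕ) (c : Fin m → F) : F[X] :=
  X ^ m + ∑ i : Fin m, C (c i) * X ^ (i : ℕ)

open Classical in
/-- a finite set containing all monic polynomials of degree `m` with non-zero constant term -/
noncomputable def Pf (F : Type*) [Field F] [Fintype F] (m : ℕ) : Finset F[X] :=
  ((Finset.univ : Finset (Fin m → F)).filter (fun c => ∀ h : 0 < m, c ⟨0, h⟩ ≠ 0)).image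
    (mkPoly m)

theorem mem_Pf {f : F[X]} (hf : f.Monic) (h0 : f.coeff 0 ≠ 0) : f ∈ Pf F f.natDegree := by
  classical
  unfold Pf
  rw [Finset.mem_image]
  refine ⟨fun i => f.coeff (i : ℕ), ?_, ?_⟩
  · rw [Finset.mem_filter]
    exact ⟨Finset.mem_univ _, fun _ => h0⟩
  · unfold mkPoly
    conv_rhs => rw [hf.as_sum]
    rw [Finset.sum_range]

theorem card_Pf_zero : (Pf F 0).card ≤ 1 := by
  classical
  unfold Pf
  refine Finset.card_image_le.trans ((Finset.card_filter_le _ _).trans ?_)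
  rw [Finset.card_univ]
  simp

theorem card_Pf_pos {m : ℕ} (hm : 1 ≤ m) :
    Fintype.card F * (Pf F m).card ≤ (Fintype.card F - 1) * Fintype.card F ^ m := by
  classical
  obtain ⟨k, rfl⟩ : ∃ k, m = k + 1 := ⟨m - 1, by omega⟩
  have h1 : (Pf F (k + 1)).card ≤ (Fintype.card F - 1) * Fintype.card F ^ k := by
    unfold Pf
    refine Finset.card_image_le.trans ?_
    have h2 : (((Finset.univ : Finset F).filter (fun a => a ≠ 0)) ×ˢ
        (Finset.univ : Finset (Fin k → F))).card = (Fintype.card F - 1) * Fintype.card F ^ k := by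
      rw [Finset.card_product, Finset.filter_ne', Finset.card_erase_of_mem (Finset.mem_univ _),
        Finset.card_univ, Finset.card_univ, Fintype.card_fun, Fintype.card_fin]
    rw [← h2]
    apply Finset.card_le_card_of_injOn (fun c : Fin (k + 1) → F => (c 0, fun i : Fin k => c i.succ))
    · intro c hc
      have hc' := (Finset.mem_filter.1 (Finset.mem_coe.1 hc)).2 (Nat.succ_pos k)
      simp only [Finset.coe_product, Set.mem_prod, Finset.mem_coe, Finset.mem_filter,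
        Finset.mem_univ, true_and, and_true]
      exact hc'
    · intro c _ c' _ hcc
      simp only [Prod.mk.injEq] at hcc
      funext i
      refine Fin.cases ?_ ?_ i
      · exact hcc.1
      · intro j
        exact congrFun hcc.2 j
  calc Fintype.card F * (Pf F (k + 1)).card
      ≤ Fintype.card F * ((Fintype.card F - 1) * Fintype.card F ^ k) :=
        Nat.mul_le_mul_left _ h1
    _ = (Fintype.card F - 1) * Fintype.card F ^ (k + 1) := by ring

open Classical in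
/-- a finite set containing all sequences `t` of monic polynomials with non-zero constant term,
`t j = 1` for `j ≥ N`, and `∑ j < N, (j + 1) * deg (t j) = n` -/
noncomputable def Tf (F : Type*) [Field F] [Fintype F] : ℕ → ℕ → Finset (ℕ → F[X])
  | 0, n => if n = 0 then {fun _ => 1} else ∅
  | N + 1, n => (Finset.range (n / (N + 1) + 1)).biUnion (fun m =>
      ((Pf F m) ×ˢ (Tf F N (n - (N + 1) * m))).image (fun x => Function.update x.2 N x.1))

theorem mem_Tf (N : ℕ) : ∀ (n : ℕ) (t : ℕ → F[X]), (∀ j, (t j).Monic ∧ (t j).coeff 0 ≠ 0) →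
    (∀ j, N ≤ j → t j = 1) → ∑ j ∈ Finset.range N, (j + 1) * (t j).natDegree = n →
    t ∈ Tf F N n := by
  classical
  induction N with
  | zero =>
    intro n t _ h2 h3
    rw [Finset.range_zero, Finset.sum_empty] at h3
    have ht : t = fun _ => 1 := funext fun j => h2 j (Nat.zero_le j)
    unfold Tf
    rw [if_pos h3.symm, ht]
    exact Finset.mem_singleton_self _
  | succ N ih =>
    intro n t h1 h2 h3
    rw [Finset.sum_range_succ] at h3
    have hle : (N + 1) * (t N).natDegree ≤ n := by omega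
    have hm : (t N).natDegree ≤ n / (N + 1) := by
      rw [Nat.le_div_iff_mul_le (Nat.succ_pos N), mul_comm]
      exact hle
    unfold Tf
    rw [Finset.mem_biUnion]
    refine ⟨(t N).natDegree, Finset.mem_range.2 (by omega), ?_⟩
    rw [Finset.mem_image]
    refine ⟨(t N, Function.update t N 1), ?_, ?_⟩
    · rw [Finset.mem_product]
      refine ⟨mem_Pf (h1 N).1 (h1 N).2, ?_⟩
      refine ih _ (Function.update t N 1) ?_ ?_ ?_
      · intro j
        by_cases hj : j = N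
        · subst hj
          rw [Function.update_self]
          exact ⟨monic_one, by simp⟩
        · rw [Function.update_of_ne hj]
          exact h1 j
      · intro j hj
        by_cases hj' : j = N
        · subst hj'
          rw [Function.update_self]
        · rw [Function.update_of_ne hj']
          exact h2 j (by omega)
      · have h4 : ∑ j ∈ Finset.range N, (j + 1) * (Function.update t N 1 j).natDegree =
            ∑ j ∈ Finset.range N, (j + 1) * (t j).natDegree := by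
          apply Finset.sum_congr rfl
          intro j hj
          rw [Finset.mem_range] at hj
          rw [Function.update_of_ne (by omega)]
        rw [h4]
        omega
    · simp

theorem card_Tf (N : ℕ) : (Tf F N 0).card ≤ 1 ∧ ∀ n, 1 ≤ n →
    Fintype.card F ^ N * (Tf F N n).card ≤ (Fintype.card F ^ N - 1) * Fintype.card F ^ n := by
  classical
  induction N with
  | zero =>
    constructor
    · unfold Tf
      simp
    · intro n hn
      unfold Tf
      rw [if_neg (by omega)]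
      simp
  | succ N ih =>
    have hrec : ∀ n, (Tf F (N + 1) n).card ≤ ∑ m ∈ Finset.range (n / (N + 1) + 1),
        (Pf F m).card * (Tf F N (n - (N + 1) * m)).card := by
      intro n
      rw [Tf]
      refine Finset.card_biUnion_le.trans ?_
      apply Finset.sum_le_sum
      intro m _
      refine Finset.card_image_le.trans ?_
      rw [Finset.card_product]
    constructor
    · refine (hrec 0).trans ?_
      simp only [Nat.zero_div, zero_add, Finset.range_one, Finset.sum_singleton, mul_zero,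
        Nat.sub_zero]
      calc (Pf F 0).card * (Tf F N 0).card ≤ 1 * 1 := Nat.mul_le_mul card_Pf_zero ih.1
        _ = 1 := one_mul 1
    · exact step_bound (Fintype.card F) N Fintype.one_lt_card (fun m => (Pf F m).card)
        (fun n => (Tf F N n).card) (fun n => (Tf F (N + 1) n).card) card_Pf_zero
        (fun m hm => card_Pf_pos hm) ih.1 ih.2 hrec

theorem card_Tf_le {n : ℕ} (hn : 1 ≤ n) : (Tf F n n).card ≤ Fintype.card F ^ n := by
  have h := (card_Tf (F := F) n).2 n hn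
  have hpos : 0 < Fintype.card F ^ n := pow_pos Fintype.card_pos n
  rw [mul_comm (Fintype.card F ^ n - 1)] at h
  have := Nat.le_of_mul_le_mul_left h hpos
  omega

end poly

end Cfsg.Agent.Lib.Helper58.GLCount
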