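import Mathlib

set_option autoImplicit false

/-!
Structure of `K[X]`-modules of finite length: decomposition data, the associated tuple of
polynomials, and the fact that it determines the module up to isomorphism.
-/

namespace Cfsg.Agent.Lib.Helper58.GLStruct

open Polynomial

universe u

/-- a bijection matching the fibres of two maps with equinumerous fibres -/
theorem exists_equiv_of_fiber_card {α β X : Type*} [Finite α] [Finite β] (t : α → X)
    (t' : β → X) (h : ∀ x, Nat.card {a // t a = x} = Nat.card {b // t' b = x}) :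
    ∃ σ : α ≃ β, ∀ a, t' (σ a) = t a := by
  have h' : ∀ x, Nonempty ({a // t a = x} ≃ {b // t' b = x}) := fun x => Finite.card_eq.1 (h x)
  let ε : ∀ x, {a // t a = x} ≃ {b // t' b = x} := fun x => Classical.choice (h' x)
  refine ⟨(Equiv.sigmaFiberEquiv t).symm.trans
    ((Equiv.sigmaCongrRight ε).trans (Equiv.sigmaFiberEquiv t')), ?_⟩
  intro a
  exact (ε (t a) ⟨a, rfl⟩).2

theorem nonempty_piQuotCongr {R : Type*} [CommRing R] {ι ι' : Type*} (σ : ι ≃ ι')
    (J : ι → Ideal R) (J' : ι' → Ideal R) (h : ∀ i, J i = J' (σ i)) :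
    Nonempty ((∀ i, R ⧸ J i) ≃ₗ[R] (∀ i', R ⧸ J' i')) :=
  ⟨(LinearEquiv.piCongrRight fun i => Submodule.quotEquivOfEq (J i) (J' (σ i)) (h i)).trans
    (LinearEquiv.piCongrLeft R (fun i' => R ⧸ J' i') σ)⟩

theorem nonempty_pi_restrict {R : Type*} [Semiring R] {ι : Type*} (N : ι → Type*)
    [∀ i, AddCommMonoid (N i)] [∀ i, Module R (N i)] (P : ι → Prop)
    (hP : ∀ i, ¬ P i → Subsingleton (N i)) :
    Nonempty ((∀ i, N i) ≃ₗ[R] (∀ i : {i // P i}, N i.1)) := by
  classical
  refine ⟨{ toFun := fun f i => f i.1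
            map_add' := fun _ _ => rfl
            map_smul' := fun _ _ => rfl
            invFun := fun g i => if h : P i then g ⟨i, h⟩ else 0
            left_inv := ?_
            right_inv := ?_ }⟩
  · intro f
    funext i
    by_cases h : P i
    · simp [h]
    · haveI := hP i h
      exact Subsingleton.elim _ _
  · intro g
    funext i
    simp [i.2]

/-- primary decomposition with monic irreducible polynomials and positive exponents -/
theorem exists_decomp {K : Type u} [Field K] {M : Type u} [AddCommGroup M] [Module K[X] M]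
    [Module.Finite K[X] M] (hM : Module.IsTorsion K[X] M) :
    ∃ (ι : Type u) (_ : Fintype ι) (p : ι → K[X]) (e : ι → ℕ), (∀ i, Irreducible (p i)) ∧
      (∀ i, (p i).Monic) ∧ (∀ i, e i ≠ 0) ∧
      Nonempty (M ≃ₗ[K[X]] ∀ i, K[X] ⧸ Ideal.span {p i ^ e i}) := by
  classical
  obtain ⟨ι, _, p, hp, e, ⟨φ⟩⟩ := Module.equiv_directSum_of_isTorsion hM
  refine ⟨{i : ι // e i ≠ 0}, inferInstance, fun i => normalize (p i.1), fun i => e i.1, ?_, ?_,
    fun i => i.2, ?_⟩
  · intro i
    exact (associated_normalize (p i.1)).irreducible (hp i.1)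
  · intro i
    exact monic_normalize (hp i.1).ne_zero
  · have hsub : ∀ i : ι, ¬ (e i ≠ 0) → Subsingleton (K[X] ⧸ Ideal.span {p i ^ e i}) := by
      intro i hi
      rw [not_not] at hi
      rw [hi, pow_zero, Ideal.span_singleton_one]
      exact Ideal.Quotient.subsingleton_iff.2 rfl
    obtain ⟨ψ⟩ := nonempty_pi_restrict (R := K[X])
      (fun i : ι => K[X] ⧸ Ideal.span {p i ^ e i}) (fun i => e i ≠ 0) hsub
    refine ⟨(φ.trans (DirectSum.linearEquivFunOnFintype K[X] ι _)).trans (ψ.trans
      (LinearEquiv.piCongrRight fun i => Submodule.quotEquivOfEq _ _ ?_))⟩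
    exact Ideal.span_singleton_eq_span_singleton.2 ((associated_normalize (p i.1)).pow_pow)

theorem finrank_pi_quot {K : Type u} [Field K] {ι : Type*} [Fintype ι] (p : ι → K[X])
    (e : ι → ℕ) (hp : ∀ i, p i ≠ 0) :
    Module.finrank K (∀ i, K[X] ⧸ Ideal.span {p i ^ e i}) = ∑ i, e i * (p i).natDegree := by
  haveI : ∀ i, Module.Finite K (K[X] ⧸ Ideal.span {p i ^ e i}) := fun i =>
    (AdjoinRoot.powerBasis (pow_ne_zero (e i) (hp i))).finite
  rw [Module.finrank_pi_fintype]
  apply Finset.sum_congr rfl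
  intro i _
  rw [finrank_quotient_span_eq_natDegree, natDegree_pow]

open Classical in
/-- the fibres of `i ↦ (p i, e i)` are counted by the normalized factors of the tuple -/
theorem card_fiber_eq {K : Type u} [Field K] {ι : Type*} [Fintype ι] (p : ι → K[X]) (e : ι → ℕ)
    (hp : ∀ i, Irreducible (p i)) (hpm : ∀ i, (p i).Monic) (π : K[X]) (k : ℕ) :
    Nat.card {i // (p i, e i) = (π, k)} =
      Multiset.count π (UniqueFactorizationMonoid.normalizedFactors
        (∏ i ∈ Finset.univ.filter (fun i => e i = k), p i)) := by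
  have h1 : UniqueFactorizationMonoid.normalizedFactors
      (∏ i ∈ Finset.univ.filter (fun i => e i = k), p i) =
      (Finset.univ.filter (fun i => e i = k)).val.map p := by
    rw [Finset.prod_eq_multiset_prod, UniqueFactorizationMonoid.normalizedFactors_prod_eq]
    · rw [Multiset.map_map]
      apply Multiset.map_congr rfl
      intro i _
      exact (hpm i).normalize_eq_self
    · intro a ha
      rw [Multiset.mem_map] at ha
      obtain ⟨i, _, rfl⟩ := ha
      exact hp i
  rw [h1, Multiset.count_map, ← Finset.filter_val, ← Finset.card_def, Finset.filter_filter,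
    Nat.card_eq_fintype_card, Fintype.card_subtype]
  congr 1
  ext i
  simp only [Finset.mem_filter, Finset.mem_univ, true_and, Prod.mk.injEq]
  exact ⟨fun h => ⟨h.2, h.1.symm⟩, fun h => ⟨h.2.symm, h.1⟩⟩

/-- decomposition data with the same tuple give isomorphic modules -/
theorem nonempty_equiv_of_prod_eq {K : Type u} [Field K] {ι ι' : Type*} [Fintype ι]
    [Fintype ι'] (p : ι → K[X]) (e : ι → ℕ) (p' : ι' → K[X]) (e' : ι' → ℕ)
    (hp : ∀ i, Irreducible (p i)) (hpm : ∀ i, (p i).Monic)
    (hp' : ∀ i, Irreducible (p' i)) (hpm' : ∀ i, (p' i).Monic)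
    (h : ∀ k, ∏ i ∈ Finset.univ.filter (fun i => e i = k), p i =
      ∏ i ∈ Finset.univ.filter (fun i => e' i = k), p' i) :
    Nonempty ((∀ i, K[X] ⧸ Ideal.span {p i ^ e i}) ≃ₗ[K[X]]
      (∀ i, K[X] ⧸ Ideal.span {p' i ^ e' i})) := by
  classical
  obtain ⟨σ, hσ⟩ := exists_equiv_of_fiber_card (fun i => (p i, e i)) (fun i => (p' i, e' i)) (by
    rintro ⟨π, k⟩
    rw [card_fiber_eq p e hp hpm π k, card_fiber_eq p' e' hp' hpm' π k, h k])
  apply nonempty_piQuotCongr σ
  intro i
  have h1 := hσ i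
  simp only [Prod.mk.injEq] at h1
  rw [h1.1, h1.2]

/-- if `X` acts injectively, the irreducible polynomials of a decomposition have non-zero
constant term -/
theorem coeff_zero_ne_zero_of_equiv {K : Type u} [Field K] {M : Type*} [AddCommGroup M]
    [Module K[X] M] (hX : ∀ v : M, (X : K[X]) • v = 0 → v = 0) {ι : Type*} [Fintype ι]
    (p : ι → K[X]) (e : ι → ℕ) (hp : ∀ i, Irreducible (p i)) (he : ∀ i, e i ≠ 0)
    (φ : M ≃ₗ[K[X]] ∀ i, K[X] ⧸ Ideal.span {p i ^ e i}) (i : ι) : (p i).coeff 0 ≠ 0 := by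
  classical
  intro h0
  obtain ⟨c, hc⟩ : (X : K[X]) ∣ p i := X_dvd_iff.2 h0
  obtain ⟨w, hw⟩ : ∃ w : K[X] ⧸ Ideal.span {p i ^ e i},
      w = Ideal.Quotient.mk (Ideal.span {p i ^ e i}) (c * p i ^ (e i - 1)) := ⟨_, rfl⟩
  have hpe : p i ^ e i = p i * p i ^ (e i - 1) := by
    rw [← pow_succ']
    congr 1
    have := he i
    omega
  have hpe' : p i ^ e i = X * (c * p i ^ (e i - 1)) := by
    rw [hpe]
    nth_rewrite 1 [hc]
    ring
  have hw0 : w ≠ 0 := by
    rw [hw]
    intro h
    rw [Ideal.Quotient.eq_zero_iff_mem, Ideal.mem_span_singleton, hpe'] at h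
    have hne : c * p i ^ (e i - 1) ≠ 0 := by
      apply mul_ne_zero
      · rintro rfl
        exact (hp i).ne_zero (by rw [hc, mul_zero])
      · exact pow_ne_zero _ (hp i).ne_zero
    have h2 : (X : K[X]) * (c * p i ^ (e i - 1)) ∣ 1 * (c * p i ^ (e i - 1)) := by
      rw [one_mul]
      exact h
    have h3 : (X : K[X]) ∣ 1 := (mul_dvd_mul_iff_right hne).1 h2
    exact not_isUnit_X (isUnit_of_dvd_one h3)
  have hXw : (X : K[X]) • w = 0 := by
    rw [hw]
    have h1 : (X : K[X]) • Ideal.Quotient.mk (Ideal.span {p i ^ e i}) (c * p i ^ (e i - 1)) =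
        Ideal.Quotient.mk (Ideal.span {p i ^ e i}) (X * (c * p i ^ (e i - 1))) := rfl
    rw [h1, Ideal.Quotient.eq_zero_iff_mem, Ideal.mem_span_singleton]
    exact dvd_of_eq hpe'
  have hv : (X : K[X]) • φ.symm (Pi.single i w) = 0 := by
    rw [← map_smul, ← Pi.single_smul, hXw, Pi.single_zero, map_zero]
  have h4 := hX _ hv
  rw [LinearEquiv.map_eq_zero_iff] at h4
  have h5 := congrFun h4 i
  rw [Pi.single_eq_same, Pi.zero_apply] at h5
  exact hw0 h5

/-- an isomorphism of the `K[X]`-modules of two endomorphisms conjugates them -/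
theorem conj_of_equiv {K : Type u} [Field K] {V : Type*} [AddCommGroup V] [Module K V]
    (A B : V →ₗ[K] V) (ψ : Module.AEval' A ≃ₗ[K[X]] Module.AEval' B) :
    ∃ g : V ≃ₗ[K] V, ∀ v, g (A v) = B (g v) := by
  refine ⟨(Module.AEval'.of A).trans ((ψ.restrictScalars K).trans (Module.AEval'.of B).symm), ?_⟩
  intro v
  simp only [LinearEquiv.trans_apply, LinearEquiv.restrictScalars_apply]
  rw [← Module.AEval'.X_smul_of, map_smul, Module.AEval'.of_symm_X_smul]

section sig

variable {K : Type u} [Field K] {V : Type u} [AddCommGroup V] [Module K V]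

/-- `t` is the tuple of invariants of the `K[X]`-module defined by `A` -/
def IsSig (A : V →ₗ[K] V) (t : ℕ → K[X]) : Prop :=
  ∃ (ι : Type u) (_ : Fintype ι) (p : ι → K[X]) (e : ι → ℕ), (∀ i, Irreducible (p i)) ∧
    (∀ i, (p i).Monic) ∧ (∀ i, e i ≠ 0) ∧
    Nonempty (Module.AEval' A ≃ₗ[K[X]] ∀ i, K[X] ⧸ Ideal.span {p i ^ e i}) ∧
    ∀ j, t j = ∏ i ∈ Finset.univ.filter (fun i => e i = j + 1), p i

theorem exists_isSig [FiniteDimensional K V] (A : V →ₗ[K] V) : ∃ t, IsSig A t := by
  obtain ⟨ι, _, p, e, hp, hpm, he, hφ⟩ := exists_decomp (K := K) (M := Module.AEval' A)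
    (Module.AEval.isTorsion_of_finiteDimensional K V A)
  exact ⟨fun j => ∏ i ∈ Finset.univ.filter (fun i => e i = j + 1), p i, ι, ‹_›, p, e, hp, hpm,
    he, hφ, fun j => rfl⟩

theorem conj_of_isSig {A B : V →ₗ[K] V} {t : ℕ → K[X]} (hA : IsSig A t) (hB : IsSig B t) :
    ∃ g : V ≃ₗ[K] V, ∀ v, g (A v) = B (g v) := by
  obtain ⟨ι, _, p, e, hp, hpm, he, ⟨φ⟩, ht⟩ := hA
  obtain ⟨ι', _, p', e', hp', hpm', he', ⟨φ'⟩, ht'⟩ := hB
  have hprod : ∀ k, ∏ i ∈ Finset.univ.filter (fun i => e i = k), p i =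
      ∏ i ∈ Finset.univ.filter (fun i => e' i = k), p' i := by
    intro k
    rcases Nat.eq_zero_or_pos k with rfl | hk
    · rw [Finset.filter_false_of_mem (fun i _ => he i),
        Finset.filter_false_of_mem (fun i _ => he' i), Finset.prod_empty, Finset.prod_empty]
    · obtain ⟨j, rfl⟩ : ∃ j, k = j + 1 := ⟨k - 1, by omega⟩
      rw [← ht j, ← ht' j]
  obtain ⟨ψ⟩ := nonempty_equiv_of_prod_eq p e p' e' hp hpm hp' hpm' hprod
  exact conj_of_equiv A B (φ.trans (ψ.trans φ'.symm))

theorem isSig_props [FiniteDimensional K V] {A : V →ₗ[K] V} (hA : Function.Injective A)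
    {t : ℕ → K[X]} (ht : IsSig A t) :
    (∀ j, (t j).Monic ∧ (t j).coeff 0 ≠ 0) ∧ (∀ j, Module.finrank K V ≤ j → t j = 1) ∧
    ∑ j ∈ Finset.range (Module.finrank K V), (j + 1) * (t j).natDegree =
      Module.finrank K V := by
  classical
  obtain ⟨ι, _, p, e, hp, hpm, he, ⟨φ⟩, ht⟩ := ht
  have hX : ∀ v : Module.AEval' A, (X : K[X]) • v = 0 → v = 0 := by
    intro v hv
    have h1 := Module.AEval'.of_symm_X_smul A v
    rw [hv, map_zero] at h1
    have h2 : (Module.AEval'.of A).symm v = 0 := hA (by rw [← h1, map_zero])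
    exact (LinearEquiv.map_eq_zero_iff _).1 h2
  have hc0 : ∀ i, (p i).coeff 0 ≠ 0 := fun i => coeff_zero_ne_zero_of_equiv hX p e hp he φ i
  have hfin : ∑ i, e i * (p i).natDegree = Module.finrank K V := by
    rw [← finrank_pi_quot p e (fun i => (hp i).ne_zero), ← (φ.restrictScalars K).finrank_eq,
      ← (Module.AEval'.of A).finrank_eq]
  have hle : ∀ i, e i ≤ Module.finrank K V := by
    intro i
    have h1 : e i * (p i).natDegree ≤ ∑ i, e i * (p i).natDegree :=
      Finset.single_le_sum (f := fun i => e i * (p i).natDegree) (fun _ _ => Nat.zero_le _)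
        (Finset.mem_univ i)
    have h2 : 1 ≤ (p i).natDegree := (hp i).natDegree_pos
    calc e i = e i * 1 := (mul_one _).symm
      _ ≤ e i * (p i).natDegree := Nat.mul_le_mul_left _ h2
      _ ≤ ∑ i, e i * (p i).natDegree := h1
      _ = Module.finrank K V := hfin
  refine ⟨fun j => ?_, fun j hj => ?_, ?_⟩
  · rw [ht j]
    refine ⟨monic_prod_of_monic _ _ (fun i _ => hpm i), ?_⟩
    rw [coeff_zero_eq_eval_zero, eval_prod, Finset.prod_ne_zero_iff]
    intro i _
    rw [← coeff_zero_eq_eval_zero]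
    exact hc0 i
  · rw [ht j, Finset.filter_false_of_mem (fun i _ => by have := hle i; omega)]
    exact Finset.prod_empty
  · refine Eq.trans ?_ hfin
    have h1 : ∀ j ∈ Finset.range (Module.finrank K V), (j + 1) * (t j).natDegree =
        ∑ i ∈ Finset.univ.filter (fun i => e i - 1 = j), e i * (p i).natDegree := by
      intro j _
      rw [ht j, natDegree_prod_of_monic _ _ (fun i _ => hpm i), Finset.mul_sum]
      have h2 : Finset.univ.filter (fun i => e i - 1 = j) =
          Finset.univ.filter (fun i => e i = j + 1) := by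
        apply Finset.filter_congr
        intro i _
        have := he i
        omega
      rw [h2]
      apply Finset.sum_congr rfl
      intro i hi
      rw [(Finset.mem_filter.1 hi).2]
    rw [Finset.sum_congr rfl h1]
    exact Finset.sum_fiberwise_of_maps_to
      (fun i _ => Finset.mem_range.2 (by have := hle i; have := he i; omega)) _

end sig

end Cfsg.Agent.Lib.Helper58.GLStruct
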