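import Mathlib
import Cfsg.Agent.Lib.Helper58.GLCount
import Cfsg.Agent.Lib.Helper58.GLStruct

set_option autoImplicit false

/-!
The number of conjugacy classes of `GL_n(q)` lies between `q ^ n - q ^ (n - 1)` and `q ^ n`.
-/

namespace Cfsg.Agent.Lib.Helper58.GLClasses

open Polynomial

universe u

variable {F : Type u} [Field F]

theorem coeff_mkPoly (m : ℕ) (c : Fin m → F) (j : Fin m) :
    (GLCount.mkPoly m c).coeff (j : ℕ) = c j := by
  classical
  unfold GLCount.mkPoly
  rw [coeff_add, coeff_X_pow, if_neg (by have := j.2; omega), zero_add, finsetSum_coeff]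
  simp only [coeff_C_mul_X_pow]
  rw [Finset.sum_eq_single j]
  · simp
  · intro i _ hij
    rw [if_neg]
    exact fun h => hij (Fin.ext h.symm)
  · intro h
    exact absurd (Finset.mem_univ j) h

theorem mkPoly_injective (m : ℕ) : Function.Injective (GLCount.mkPoly (F := F) m) := by
  intro c c' h
  funext j
  rw [← coeff_mkPoly m c j, ← coeff_mkPoly m c' j, h]

theorem monic_mkPoly (m : ℕ) (c : Fin m → F) : (GLCount.mkPoly m c).Monic :=
  monic_X_pow_add (degree_sum_fin_lt c)

theorem natDegree_mkPoly (m : ℕ) (c : Fin m → F) : (GLCount.mkPoly m c).natDegree = m := by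
  unfold GLCount.mkPoly
  rw [natDegree_add_eq_left_of_degree_lt, natDegree_X_pow]
  rw [degree_X_pow]
  exact degree_sum_fin_lt c

theorem exists_gl_charpoly (n : ℕ) (f : F[X]) (hf : f.Monic) (hd : f.natDegree = n)
    (h0 : f.coeff 0 ≠ 0) :
    ∃ g : Matrix.GeneralLinearGroup (Fin n) F, (g : Matrix (Fin n) (Fin n) F).charpoly = f := by
  classical
  have hf' : f ≠ 0 := hf.ne_zero
  obtain ⟨pb, hpb⟩ : ∃ pb : PowerBasis F (AdjoinRoot f), pb = AdjoinRoot.powerBasis hf' :=
    ⟨_, rfl⟩
  have hdim : pb.dim = n := by rw [hpb, AdjoinRoot.powerBasis_dim]; exact hd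
  have h1 : (Algebra.leftMulMatrix pb.basis pb.gen).charpoly = f := by
    rw [charpoly_leftMulMatrix, hpb, AdjoinRoot.minpoly_powerBasis_gen_of_monic hf]
  have h2 : (Matrix.reindex (finCongr hdim) (finCongr hdim)
      (Algebra.leftMulMatrix pb.basis pb.gen)).charpoly = f := by
    rw [Matrix.charpoly_reindex]; exact h1
  have h3 : (Matrix.reindex (finCongr hdim) (finCongr hdim)
      (Algebra.leftMulMatrix pb.basis pb.gen)).det ≠ 0 := by
    rw [Matrix.det_eq_sign_charpoly_coeff, h2]
    exact mul_ne_zero (pow_ne_zero _ (neg_ne_zero.2 one_ne_zero)) h0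
  exact ⟨Matrix.GeneralLinearGroup.mkOfDetNeZero _ h3, h2⟩

theorem charpoly_eq_of_isConj {n : ℕ} {g h : Matrix.GeneralLinearGroup (Fin n) F}
    (hc : IsConj g h) :
    (g : Matrix (Fin n) (Fin n) F).charpoly = (h : Matrix (Fin n) (Fin n) F).charpoly := by
  obtain ⟨c, hc⟩ := isConj_iff.1 hc
  rw [← hc]
  simp only [Units.val_mul, Matrix.coe_units_inv]
  exact (Matrix.charpoly_units_conj c (g : Matrix (Fin n) (Fin n) F)).symm

variable [Fintype F]

theorem le_card_conjClasses (n : ℕ) (hn : 1 ≤ n) :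
    Fintype.card F ^ n - Fintype.card F ^ (n - 1) ≤
      Nat.card (ConjClasses (Matrix.GeneralLinearGroup (Fin n) F)) := by
  classical
  obtain ⟨k, rfl⟩ : ∃ k, n = k + 1 := ⟨n - 1, by omega⟩
  have hex : ∀ d : {a : F // a ≠ 0} × (Fin k → F),
      ∃ g : Matrix.GeneralLinearGroup (Fin (k + 1)) F,
        (g : Matrix (Fin (k + 1)) (Fin (k + 1)) F).charpoly =
          GLCount.mkPoly (k + 1) (Fin.cons d.1.1 d.2) := by
    intro d
    apply exists_gl_charpoly (k + 1) _ (monic_mkPoly _ _) (natDegree_mkPoly _ _)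
    have h := coeff_mkPoly (k + 1) (Fin.cons d.1.1 d.2 : Fin (k + 1) → F) 0
    rw [Fin.cons_zero] at h
    rw [show ((0 : Fin (k + 1)) : ℕ) = 0 from rfl] at h
    rw [h]
    exact d.1.2
  choose gm hgm using hex
  have hinj : Function.Injective (fun d => ConjClasses.mk (gm d)) := by
    intro d d' h
    have h1 : IsConj (gm d) (gm d') := ConjClasses.mk_eq_mk_iff_isConj.1 h
    have h2 := charpoly_eq_of_isConj h1
    rw [hgm d, hgm d'] at h2
    have h3 := mkPoly_injective (k + 1) h2
    have h4 : d.1.1 = d'.1.1 := by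
      have := congrFun h3 0
      rwa [Fin.cons_zero, Fin.cons_zero] at this
    have h5 : d.2 = d'.2 := by
      funext i
      have := congrFun h3 i.succ
      rwa [Fin.cons_succ, Fin.cons_succ] at this
    exact Prod.ext (Subtype.ext h4) h5
  haveI : Finite (ConjClasses (Matrix.GeneralLinearGroup (Fin (k + 1)) F)) :=
    Finite.of_surjective ConjClasses.mk ConjClasses.mk_surjective
  have hcard := Nat.card_le_card_of_injective _ hinj
  have hD : Nat.card ({a : F // a ≠ 0} × (Fin k → F)) =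
      (Fintype.card F - 1) * Fintype.card F ^ k := by
    rw [Nat.card_prod, Nat.card_eq_fintype_card, Nat.card_eq_fintype_card,
      Fintype.card_subtype_compl, Fintype.card_subtype_eq, Fintype.card_fun, Fintype.card_fin]
  rw [hD] at hcard
  have h6 : Fintype.card F ^ (k + 1) - Fintype.card F ^ (k + 1 - 1) =
      (Fintype.card F - 1) * Fintype.card F ^ k := by
    rw [Nat.add_sub_cancel, Nat.sub_mul, one_mul, pow_succ, mul_comm]
  rw [h6]
  exact hcard

theorem card_conjClasses_le (n : ℕ) (hn : 1 ≤ n) :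
    Nat.card (ConjClasses (Matrix.GeneralLinearGroup (Fin n) F)) ≤ Fintype.card F ^ n := by
  classical
  obtain ⟨Θ, hΘ⟩ : ∃ Θ : Matrix.GeneralLinearGroup (Fin n) F ≃*
      ((Fin n → F) ≃ₗ[F] (Fin n → F)), Θ = Matrix.GeneralLinearGroup.toLin.trans
        (LinearMap.GeneralLinearGroup.generalLinearEquiv F (Fin n → F)) := ⟨_, rfl⟩
  have hfr : Module.finrank F (Fin n → F) = n := by simp
  have hex : ∀ g : Matrix.GeneralLinearGroup (Fin n) F, ∃ t,
      GLStruct.IsSig ((Θ g : (Fin n → F) ≃ₗ[F] (Fin n → F)) : (Fin n → F) →ₗ[F] (Fin n → F)) t :=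
    fun g => GLStruct.exists_isSig _
  choose sg hsg using hex
  have hmem : ∀ g, sg g ∈ GLCount.Tf F n n := by
    intro g
    obtain ⟨h1, h2, h3⟩ := GLStruct.isSig_props (LinearEquiv.injective (Θ g)) (hsg g)
    rw [hfr] at h2 h3
    exact GLCount.mem_Tf n n (sg g) h1 h2 h3
  obtain ⟨rep, hrep⟩ : ∃ rep : ConjClasses (Matrix.GeneralLinearGroup (Fin n) F) →
      Matrix.GeneralLinearGroup (Fin n) F, ∀ c, ConjClasses.mk (rep c) = c :=
    ⟨Function.surjInv ConjClasses.mk_surjective, Function.surjInv_eq ConjClasses.mk_surjective⟩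
  have hinj : Function.Injective
      (fun c => (⟨sg (rep c), hmem _⟩ : {t // t ∈ GLCount.Tf F n n})) := by
    intro c c' h
    have h1 : sg (rep c) = sg (rep c') := congrArg Subtype.val h
    have h2 := hsg (rep c')
    rw [← h1] at h2
    obtain ⟨γ, hγ⟩ := GLStruct.conj_of_isSig (hsg (rep c)) h2
    have hc : IsConj (Θ (rep c)) (Θ (rep c')) := by
      rw [isConj_iff]
      refine ⟨γ, ?_⟩
      refine LinearEquiv.ext fun v => ?_
      show γ (Θ (rep c) (γ.symm v)) = Θ (rep c') v
      have h3 := hγ (γ.symm v)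
      simp only [LinearEquiv.coe_coe] at h3
      rw [h3, LinearEquiv.apply_symm_apply]
    have hc' : IsConj (rep c) (rep c') := by
      have h4 := Θ.symm.toMonoidHom.map_isConj hc
      simpa using h4
    rw [← hrep c, ← hrep c']
    exact ConjClasses.mk_eq_mk_iff_isConj.2 hc'
  calc Nat.card (ConjClasses (Matrix.GeneralLinearGroup (Fin n) F))
      ≤ Nat.card {t // t ∈ GLCount.Tf F n n} := Nat.card_le_card_of_injective _ hinj
    _ = (GLCount.Tf F n n).card := by rw [Nat.card_eq_fintype_card, Fintype.card_coe]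
    _ ≤ Fintype.card F ^ n := GLCount.card_Tf_le hn

theorem main (n : ℕ) (hn : 1 ≤ n) :
    Fintype.card F ^ n - Fintype.card F ^ (n - 1) ≤
        Nat.card (ConjClasses (Matrix.GeneralLinearGroup (Fin n) F)) ∧
      Nat.card (ConjClasses (Matrix.GeneralLinearGroup (Fin n) F)) ≤ Fintype.card F ^ n :=
  ⟨le_card_conjClasses n hn, card_conjClasses_le n hn⟩

end Cfsg.Agent.Lib.Helper58.GLClasses
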