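import Mathlib

set_option autoImplicit false

/-! Derived length of finite linear `p`-groups. -/

namespace Cfsg.Agent.Lib.Helper58.LinPGroup

open Module
open scoped commutatorElement

universe u v w

section Derived

variable {G : Type*} [Group G]

theorem derived_le_ker_of_range {H : Type*} [Group H] (φ : G →* H) (k : ℕ)
    (h : derivedSeries φ.range k = ⊥) : derivedSeries G k ≤ φ.ker := by
  have h1 := map_derivedSeries_eq (f := φ.rangeRestrict) φ.rangeRestrict_surjective k
  rw [h] at h1
  intro x hx
  have h2 : φ.rangeRestrict x ∈ (derivedSeries G k).map φ.rangeRestrict :=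
    Subgroup.mem_map_of_mem _ hx
  rw [h1, Subgroup.mem_bot] at h2
  rw [MonoidHom.mem_ker]
  have h3 := congrArg Subtype.val h2
  simpa using h3

theorem derived_add_le_map (H : Subgroup G) (a : ℕ) (h : derivedSeries G a ≤ H) (k : ℕ) :
    derivedSeries G (a + k) ≤ (derivedSeries H k).map H.subtype := by
  induction k with
  | zero =>
    rw [add_zero, derivedSeries_zero, ← MonoidHom.range_eq_map, Subgroup.range_subtype]
    exact h
  | succ k ih =>
    rw [← add_assoc, derivedSeries_succ, derivedSeries_succ, Subgroup.map_commutator]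
    exact Subgroup.commutator_mono ih ih

theorem derived_one_eq_bot_of_comm (h : ∀ a b : G, a * b = b * a) : derivedSeries G 1 = ⊥ := by
  rw [derivedSeries_one, commutator_def, eq_bot_iff, Subgroup.commutator_le]
  intro a _ b _
  rw [Subgroup.mem_bot, commutatorElement_eq_one_iff_commute]
  exact h a b

end Derived

section Res

variable {K : Type u} [Field K] {V : Type v} [AddCommGroup V] [Module K V]
variable {Γ : Type w} [Group Γ]

/-- Restriction of a linear action to an invariant subspace. -/
def resEnd (ι : Γ →* (End K V)ˣ) (W : Submodule K V)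
    (hW : ∀ γ : Γ, ∀ w ∈ W, ((ι γ : (End K V)ˣ) : End K V) w ∈ W) : Γ →* End K W where
  toFun γ := ((ι γ : (End K V)ˣ) : End K V).restrict (hW γ)
  map_one' := by
    ext w
    simp
  map_mul' := by
    intro a b
    ext w
    simp

/-- Restriction of a linear action to an invariant subspace, as units. -/
def resHom (ι : Γ →* (End K V)ˣ) (W : Submodule K V)
    (hW : ∀ γ : Γ, ∀ w ∈ W, ((ι γ : (End K V)ˣ) : End K V) w ∈ W) : Γ →* (End K W)ˣ :=
  (resEnd ι W hW).toHomUnits

theorem resHom_apply (ι : Γ →* (End K V)ˣ) (W : Submodule K V)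
    (hW : ∀ γ : Γ, ∀ w ∈ W, ((ι γ : (End K V)ˣ) : End K V) w ∈ W) (γ : Γ) (w : W) :
    (((resHom ι W hW γ : (End K W)ˣ) : End K W) w : V) = ((ι γ : (End K V)ˣ) : End K V) w := rfl

/-- The induced action on the quotient by an invariant subspace. -/
def quotEnd (ι : Γ →* (End K V)ˣ) (W : Submodule K V)
    (hW : ∀ γ : Γ, ∀ w ∈ W, ((ι γ : (End K V)ˣ) : End K V) w ∈ W) : Γ →* End K (V ⧸ W) where
  toFun γ := W.mapQ W ((ι γ : (End K V)ˣ) : End K V) (fun w hw => hW γ w hw)
  map_one' := by
    ext w
    simp
  map_mul' := by
    intro a b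
    ext w
    simp

/-- The induced action on the quotient by an invariant subspace, as units. -/
def quotHom (ι : Γ →* (End K V)ˣ) (W : Submodule K V)
    (hW : ∀ γ : Γ, ∀ w ∈ W, ((ι γ : (End K V)ˣ) : End K V) w ∈ W) : Γ →* (End K (V ⧸ W))ˣ :=
  (quotEnd ι W hW).toHomUnits

theorem quotHom_apply (ι : Γ →* (End K V)ˣ) (W : Submodule K V)
    (hW : ∀ γ : Γ, ∀ w ∈ W, ((ι γ : (End K V)ˣ) : End K V) w ∈ W) (γ : Γ) (x : V) :
    ((quotHom ι W hW γ : (End K (V ⧸ W))ˣ) : End K (V ⧸ W)) (Submodule.Quotient.mk x)
      = Submodule.Quotient.mk (((ι γ : (End K V)ˣ) : End K V) x) := rfl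

/-- If `γ` acts trivially on `W` and on `V ⧸ W` then `(γ - 1)` maps `V` into `W` and kills `W`. -/
theorem sub_one_mem_of_quot (ι : Γ →* (End K V)ˣ) (W : Submodule K V)
    (hW : ∀ γ : Γ, ∀ w ∈ W, ((ι γ : (End K V)ˣ) : End K V) w ∈ W) (γ : Γ)
    (hγ : γ ∈ (quotHom ι W hW).ker) (x : V) :
    ((ι γ : (End K V)ˣ) : End K V) x - x ∈ W := by
  rw [MonoidHom.mem_ker] at hγ
  have h1 := quotHom_apply ι W hW γ x
  rw [hγ] at h1
  have h2 : (Submodule.Quotient.mk x : V ⧸ W) = Submodule.Quotient.mk (((ι γ : (End K V)ˣ) : End K V) x) := by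
    simpa using h1
  have h3 := (Submodule.Quotient.eq W).mp h2
  have h4 := W.neg_mem h3
  simpa using h4

theorem fix_of_res (ι : Γ →* (End K V)ˣ) (W : Submodule K V)
    (hW : ∀ γ : Γ, ∀ w ∈ W, ((ι γ : (End K V)ˣ) : End K V) w ∈ W) (γ : Γ)
    (hγ : γ ∈ (resHom ι W hW).ker) (w : V) (hw : w ∈ W) :
    ((ι γ : (End K V)ˣ) : End K V) w = w := by
  rw [MonoidHom.mem_ker] at hγ
  have h1 := resHom_apply ι W hW γ ⟨w, hw⟩
  rw [hγ] at h1
  simpa using h1.symm

end Res

section CharP

variable (p : ℕ) [Fact p.Prime] (K : Type u) [Field K]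

theorem charP_of_cast_eq_zero (hpK : (p : K) = 0) : CharP K p := by
  obtain ⟨q, hq⟩ := CharP.exists K
  have h1 : q ∣ p := (CharP.cast_eq_zero_iff K q p).mp hpK
  rcases (Nat.dvd_prime (Fact.out : p.Prime)).mp h1 with h | h
  · subst h
    exact absurd rfl (CharP.char_ne_one K 1)
  · subst h
    exact hq

/-- Unipotency in characteristic `p`. -/
theorem sub_one_pow (hpK : (p : K) = 0) {V : Type v} [AddCommGroup V] [Module K V]
    (z : End K V) (j : ℕ) : (z - 1) ^ (p ^ j) = z ^ (p ^ j) - 1 := by
  haveI : CharP K p := charP_of_cast_eq_zero p K hpK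
  have h : ((Polynomial.X : Polynomial K) - 1) ^ (p ^ j) = Polynomial.X ^ (p ^ j) - 1 := by
    rw [sub_pow_char_pow, one_pow]
  have h2 := congrArg (Polynomial.aeval z) h
  simpa using h2

/-- A finite `p`-group acting linearly on a nonzero space in characteristic `p` fixes a nonzero
vector. -/
theorem exists_fixed (hpK : (p : K) = 0) :
    ∀ n : ℕ, ∀ (V : Type v) [AddCommGroup V] [Module K V] [FiniteDimensional K V],
      finrank K V ≤ n → Nontrivial V → ∀ (Γ : Type w) [Group Γ] [Finite Γ], IsPGroup p Γ →
        ∀ ι : Γ →* (End K V)ˣ,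
          ∃ v : V, v ≠ 0 ∧ ∀ γ : Γ, ((ι γ : (End K V)ˣ) : End K V) v = v := by
  intro n
  induction n using Nat.strong_induction_on with
  | _ n ih =>
    intro V _ _ _ hn hV Γ _ _ hΓ ι
    by_cases htriv : ∀ γ : Γ, ι γ = 1
    · obtain ⟨v, hv⟩ := exists_ne (0 : V)
      exact ⟨v, hv, fun γ => by rw [htriv γ]; simp⟩
    · have hR : IsPGroup p ι.range := hΓ.of_surjective ι.rangeRestrict ι.rangeRestrict_surjective
      haveI : Nontrivial ι.range := by
        push Not at htriv
        obtain ⟨γ, hγ⟩ := htriv
        exact ⟨⟨⟨ι γ, γ, rfl⟩, 1, fun h => hγ (congrArg Subtype.val h)⟩⟩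
      haveI : Finite ι.range := Finite.of_surjective ι.rangeRestrict ι.rangeRestrict_surjective
      haveI := hR.center_nontrivial
      obtain ⟨⟨z, hz⟩, hz1⟩ := exists_ne (1 : Subgroup.center ι.range)
      have hz1' : (z : (End K V)ˣ) ≠ 1 := by
        intro h
        apply hz1
        apply Subtype.ext
        apply Subtype.ext
        exact h
      obtain ⟨j, hj⟩ := hR z
      have hj' : ((z : (End K V)ˣ) : End K V) ^ (p ^ j) = 1 := by
        have h1 := congrArg (fun y : ι.range => ((y : (End K V)ˣ) : End K V)) hj
        simpa using h1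
      set N : End K V := ((z : (End K V)ˣ) : End K V) - 1 with hN
      have hNpow : N ^ (p ^ j) = 0 := by
        rw [hN, sub_one_pow p K hpK, hj', sub_self]
      let W : Submodule K V := LinearMap.ker N
      have hWbot : W ≠ ⊥ := by
        intro h
        have hinj : Function.Injective N := LinearMap.ker_eq_bot.mp h
        have hinj' : Function.Injective (N ^ (p ^ j)) := by
          rw [Module.End.coe_pow]
          exact hinj.iterate _
        rw [hNpow] at hinj'
        obtain ⟨v, hv⟩ := exists_ne (0 : V)
        exact hv (hinj' (by simp))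
      have hWtop : W ≠ ⊤ := by
        intro h
        apply hz1'
        have h0 : N = 0 := LinearMap.ker_eq_top.mp h
        rw [hN, sub_eq_zero] at h0
        exact Units.ext h0
      have hWinv : ∀ γ : Γ, ∀ w ∈ W, ((ι γ : (End K V)ˣ) : End K V) w ∈ W := by
        intro γ w hw
        have hc : (z : (End K V)ˣ) * ι γ = ι γ * (z : (End K V)ˣ) := by
          have h1 := Subgroup.mem_center_iff.mp hz ⟨ι γ, γ, rfl⟩
          exact (congrArg Subtype.val h1).symm
        have hc' : ((z : (End K V)ˣ) : End K V) * ((ι γ : (End K V)ˣ) : End K V)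
            = ((ι γ : (End K V)ˣ) : End K V) * ((z : (End K V)ˣ) : End K V) := by
          rw [← Units.val_mul, ← Units.val_mul, hc]
        have hw' : ((z : (End K V)ˣ) : End K V) w = w := by
          have h1 : N w = 0 := hw
          rw [hN, LinearMap.sub_apply, sub_eq_zero] at h1
          simpa using h1
        show N (((ι γ : (End K V)ˣ) : End K V) w) = 0
        rw [hN, LinearMap.sub_apply, sub_eq_zero]
        have h2 := congrArg (fun f : End K V => f w) hc'
        simp only [Module.End.mul_apply] at h2
        rw [h2, hw']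
        simp
      have hlt : finrank K W < finrank K V := Submodule.finrank_lt hWtop
      haveI : Nontrivial W := Submodule.nontrivial_iff_ne_bot.mpr hWbot
      obtain ⟨w, hw0, hwfix⟩ :=
        ih (n - 1) (by omega) W (by omega) inferInstance Γ hΓ (resHom ι W hWinv)
      refine ⟨(w : V), fun h => hw0 (Subtype.ext h), fun γ => ?_⟩
      have h2 := congrArg Subtype.val (hwfix γ)
      rwa [resHom_apply] at h2

/-- Invariant subspaces of every dimension. -/
theorem exists_invariant (hpK : (p : K) = 0) :
    ∀ k : ℕ, ∀ (V : Type v) [AddCommGroup V] [Module K V] [FiniteDimensional K V],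
      k ≤ finrank K V → ∀ (Γ : Type w) [Group Γ] [Finite Γ], IsPGroup p Γ →
        ∀ ι : Γ →* (End K V)ˣ, ∃ W : Submodule K V,
          (∀ γ : Γ, ∀ w ∈ W, ((ι γ : (End K V)ˣ) : End K V) w ∈ W) ∧ finrank K W = k := by
  intro k
  induction k with
  | zero =>
    intro V _ _ _ _ Γ _ _ _ ι
    refine ⟨⊥, ?_, finrank_bot K V⟩
    intro γ w hw
    rw [Submodule.mem_bot] at hw ⊢
    rw [hw, map_zero]
  | succ k ih =>
    intro V _ _ _ hk Γ _ _ hΓ ι
    haveI : Nontrivial V := Module.nontrivial_of_finrank_pos (R := K) (by omega)
    obtain ⟨v, hv0, hvfix⟩ := exists_fixed p K hpK (finrank K V) V le_rfl inferInstance Γ hΓ ι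
    let L : Submodule K V := Submodule.span K {v}
    have hL : ∀ γ : Γ, ∀ w ∈ L, ((ι γ : (End K V)ˣ) : End K V) w ∈ L := by
      intro γ w hw
      obtain ⟨c, rfl⟩ := Submodule.mem_span_singleton.mp hw
      rw [map_smul, hvfix γ]
      exact Submodule.smul_mem _ _ (Submodule.mem_span_singleton_self v)
    have hL1 : finrank K L = 1 := finrank_span_singleton hv0
    have hq : finrank K (V ⧸ L) + finrank K L = finrank K V := Submodule.finrank_quotient_add_finrank L
    obtain ⟨W', hW'inv, hW'k⟩ := ih (V ⧸ L) (by omega) Γ hΓ (quotHom ι L hL)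
    let W : Submodule K V := W'.comap L.mkQ
    have hLW : L ≤ W := by
      intro x hx
      show L.mkQ x ∈ W'
      have : L.mkQ x = 0 := by
        rw [Submodule.mkQ_apply, Submodule.Quotient.mk_eq_zero]
        exact hx
      rw [this]
      exact W'.zero_mem
    refine ⟨W, ?_, ?_⟩
    · intro γ w hw
      show L.mkQ (((ι γ : (End K V)ˣ) : End K V) w) ∈ W'
      have h1 := hW'inv γ (L.mkQ w) hw
      rw [Submodule.mkQ_apply, quotHom_apply] at h1
      exact h1
    · let f : W →ₗ[K] W' := L.mkQ.restrict (fun w hw => hw)
      have hf := LinearMap.finrank_range_add_finrank_ker f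
      have hrange : LinearMap.range f = ⊤ := by
        rw [LinearMap.range_eq_top]
        rintro ⟨y, hy⟩
        obtain ⟨x, rfl⟩ := L.mkQ_surjective y
        exact ⟨⟨x, hy⟩, rfl⟩
      have hker : LinearMap.ker f = L.comap W.subtype := by
        ext ⟨x, hx⟩
        rw [LinearMap.mem_ker, Submodule.mem_comap]
        constructor
        · intro h
          have h1 := congrArg Subtype.val h
          have h2 : L.mkQ x = 0 := h1
          rw [Submodule.mkQ_apply, Submodule.Quotient.mk_eq_zero] at h2
          exact h2
        · intro h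
          apply Subtype.ext
          show L.mkQ x = 0
          rw [Submodule.mkQ_apply, Submodule.Quotient.mk_eq_zero]
          exact h
      rw [hrange, finrank_top, hker, (Submodule.comapSubtypeEquivOfLe hLW).finrank_eq, hW'k, hL1] at hf
      exact hf.symm

/-- Derived length of a finite `p`-group of linear maps in characteristic `p`. -/
theorem derived_bot_of_char (hpK : (p : K) = 0) :
    ∀ n : ℕ, ∀ (V : Type v) [AddCommGroup V] [Module K V] [FiniteDimensional K V],
      finrank K V ≤ n → ∀ (Q : Subgroup (End K V)ˣ) [Finite Q], IsPGroup p Q →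
        derivedSeries Q (Nat.clog 2 n) = ⊥ := by
  intro n
  induction n using Nat.strong_induction_on with
  | _ n ih =>
    intro V _ _ _ hn Q _ hQ
    obtain ⟨W, hWinv, hWk⟩ := exists_invariant p K hpK (finrank K V / 2) V (Nat.div_le_self _ _)
      Q hQ Q.subtype
    have hq : finrank K (V ⧸ W) + finrank K W = finrank K V := Submodule.finrank_quotient_add_finrank W
    -- elements acting trivially on `W` and `V ⧸ W` commute
    have hcomm : ∀ a b : Q, a ∈ (resHom Q.subtype W hWinv).ker ⊓ (quotHom Q.subtype W hWinv).ker →
        b ∈ (resHom Q.subtype W hWinv).ker ⊓ (quotHom Q.subtype W hWinv).ker → a * b = b * a := by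
      rintro a b ⟨ha1, ha2⟩ ⟨hb1, hb2⟩
      apply Subtype.ext
      apply Units.ext
      apply LinearMap.ext
      intro x
      have e1 := sub_one_mem_of_quot Q.subtype W hWinv a ha2 x
      have e2 := sub_one_mem_of_quot Q.subtype W hWinv b hb2 x
      have f1 := fix_of_res Q.subtype W hWinv a ha1 _ e2
      have f2 := fix_of_res Q.subtype W hWinv b hb1 _ e1
      simp only [Subgroup.coe_subtype, map_sub] at e1 e2 f1 f2
      simp only [Subgroup.coe_mul, Units.val_mul, Module.End.mul_apply]
      have g1 : ((a : (End K V)ˣ) : End K V) (((b : (End K V)ˣ) : End K V) x)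
          = ((a : (End K V)ˣ) : End K V) x + ((b : (End K V)ˣ) : End K V) x - x := by
        rw [sub_eq_iff_eq_add] at f1
        rw [f1]
        abel
      have g2 : ((b : (End K V)ˣ) : End K V) (((a : (End K V)ˣ) : End K V) x)
          = ((a : (End K V)ˣ) : End K V) x + ((b : (End K V)ˣ) : End K V) x - x := by
        rw [sub_eq_iff_eq_add] at f2
        rw [f2]
        abel
      rw [g1, g2]
    by_cases hn2 : n ≤ 1
    · -- then `Q` is trivial
      rw [Nat.clog_of_right_le_one hn2, derivedSeries_zero, eq_bot_iff]
      intro a _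
      rw [Subgroup.mem_bot]
      apply Subtype.ext
      apply Units.ext
      apply LinearMap.ext
      intro x
      rcases Nat.eq_zero_or_pos (finrank K V) with h0 | hpos
      · haveI : Subsingleton V := Module.finrank_zero_iff.mp h0
        exact Subsingleton.elim _ _
      · haveI : Nontrivial V := Module.nontrivial_of_finrank_pos (R := K) hpos
        obtain ⟨v, hv0, hvfix⟩ := exists_fixed p K hpK (finrank K V) V le_rfl inferInstance Q hQ Q.subtype
        have h1 : finrank K V = 1 := by omega
        obtain ⟨c, rfl⟩ := (finrank_eq_one_iff_of_nonzero' v hv0).mp h1 x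
        have h2 := hvfix a
        simp only [Subgroup.coe_subtype] at h2
        simp only [OneMemClass.coe_one, Units.val_one, Module.End.one_apply, map_smul, h2]
    · push Not at hn2
      have hm : (n + 1) / 2 < n := by omega
      have hW1 : finrank K W ≤ (n + 1) / 2 := by rw [hWk]; omega
      have hW2 : finrank K (V ⧸ W) ≤ (n + 1) / 2 := by omega
      haveI : Finite (resHom Q.subtype W hWinv).range :=
        Finite.of_surjective _ (MonoidHom.rangeRestrict_surjective _)
      haveI : Finite (quotHom Q.subtype W hWinv).range :=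
        Finite.of_surjective _ (MonoidHom.rangeRestrict_surjective _)
      have hRW : IsPGroup p (resHom Q.subtype W hWinv).range :=
        hQ.of_surjective (resHom Q.subtype W hWinv).rangeRestrict (MonoidHom.rangeRestrict_surjective _)
      have hRQ : IsPGroup p (quotHom Q.subtype W hWinv).range :=
        hQ.of_surjective (quotHom Q.subtype W hWinv).rangeRestrict (MonoidHom.rangeRestrict_surjective _)
      have d1 := derived_le_ker_of_range (resHom Q.subtype W hWinv) _
        (ih ((n + 1) / 2) hm W hW1 (resHom Q.subtype W hWinv).range hRW)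
      have d2 := derived_le_ker_of_range (quotHom Q.subtype W hWinv) _
        (ih ((n + 1) / 2) hm (V ⧸ W) hW2 (quotHom Q.subtype W hWinv).range hRQ)
      have hclog : Nat.clog 2 n = Nat.clog 2 ((n + 1) / 2) + 1 := by
        rw [Nat.clog_of_two_le (by norm_num) hn2]
        rfl
      rw [hclog, derivedSeries_succ, eq_bot_iff, Subgroup.commutator_le]
      intro a ha b hb
      rw [Subgroup.mem_bot, commutatorElement_eq_one_iff_commute]
      exact hcomm a b ⟨d1 ha, d2 ha⟩ ⟨d1 hb, d2 hb⟩

end CharP

section NeChar

variable (p : ℕ) [Fact p.Prime] (K : Type u) [Field K]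

theorem unit_injective {V : Type v} [AddCommGroup V] [Module K V] (g : (End K V)ˣ) :
    Function.Injective ((g : (End K V)ˣ) : End K V) := by
  apply Function.LeftInverse.injective (g := ((g⁻¹ : (End K V)ˣ) : End K V))
  intro v
  rw [← Module.End.mul_apply, Units.inv_mul, Module.End.one_apply]

/-- In characteristic different from `p`, an element of a `p`-group acting trivially on an
invariant subspace and on the quotient acts trivially. -/
theorem eq_one_of_res_quot (hpK : (p : K) ≠ 0) {V : Type v} [AddCommGroup V] [Module K V]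
    {Γ : Type w} [Group Γ] (hΓ : IsPGroup p Γ) (ι : Γ →* (End K V)ˣ) (W : Submodule K V)
    (hW : ∀ γ : Γ, ∀ w ∈ W, ((ι γ : (End K V)ˣ) : End K V) w ∈ W) (γ : Γ)
    (h1 : γ ∈ (resHom ι W hW).ker) (h2 : γ ∈ (quotHom ι W hW).ker) : ι γ = 1 := by
  set g : End K V := ((ι γ : (End K V)ˣ) : End K V) with hg
  have hNN : (g - 1) * (g - 1) = 0 := by
    apply LinearMap.ext
    intro x
    have e := sub_one_mem_of_quot ι W hW γ h2 x
    have f := fix_of_res ι W hW γ h1 _ e
    simp only [Module.End.mul_apply, LinearMap.sub_apply, Module.End.one_apply,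
      LinearMap.zero_apply]
    rw [← hg] at f
    rw [f, sub_self]
  obtain ⟨j, hj⟩ := hΓ γ
  have hpow : g ^ (p ^ j) = 1 := by
    have h3 := congrArg (fun y : (End K V)ˣ => (y : End K V)) (congrArg ι hj)
    simpa using h3
  have key : ∀ m : ℕ, g ^ m = 1 + (m : K) • (g - 1) := by
    intro m
    induction m with
    | zero => simp
    | succ m ih =>
      rw [pow_succ, ih]
      have h4 : g = 1 + (g - 1) := by abel
      calc (1 + (m : K) • (g - 1)) * g = (1 + (m : K) • (g - 1)) * (1 + (g - 1)) := by rw [← h4]
        _ = 1 + (m : K) • (g - 1) + (g - 1) + (m : K) • ((g - 1) * (g - 1)) := by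
              rw [mul_add, mul_one, add_mul, one_mul, smul_mul_assoc]
              abel
        _ = 1 + ((m + 1 : ℕ) : K) • (g - 1) := by
              rw [hNN, smul_zero, add_zero, Nat.cast_succ, add_smul, one_smul]
              abel
  have h3 := key (p ^ j)
  rw [hpow] at h3
  have h4 : ((p ^ j : ℕ) : K) • (g - 1) = 0 := by
    have h5 := h3
    rw [left_eq_add] at h5
    exact h5
  have h5 : ((p ^ j : ℕ) : K) ≠ 0 := by
    rw [Nat.cast_pow]
    exact pow_ne_zero _ hpK
  have h6 : g - 1 = 0 := (smul_eq_zero.mp h4).resolve_left h5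
  exact Units.ext (sub_eq_zero.mp h6)

variable [IsAlgClosed K]

/-- Derived length of a finite `p`-group of linear maps over an algebraically closed field of
characteristic different from `p`. -/
theorem derived_bot_of_ne (hpK : (p : K) ≠ 0) :
    ∀ n : ℕ, ∀ (V : Type v) [AddCommGroup V] [Module K V] [FiniteDimensional K V],
      finrank K V ≤ n → ∀ (Q : Subgroup (End K V)ˣ) [Finite Q], IsPGroup p Q →
        derivedSeries Q (Nat.log 2 n + 1) = ⊥ := by
  intro n
  induction n using Nat.strong_induction_on with
  | _ n ih =>
    intro V _ _ _ hn Q _ hQ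
    by_cases hab : ∀ a b : Q, a * b = b * a
    · have h1 := derived_one_eq_bot_of_comm hab
      rw [eq_bot_iff, ← h1]
      exact derivedSeries_antitone Q (by omega)
    by_cases hred : ∃ W : Submodule K V,
        (∀ γ : Q, ∀ w ∈ W, ((Q.subtype γ : (End K V)ˣ) : End K V) w ∈ W) ∧ W ≠ ⊥ ∧ W ≠ ⊤
    · obtain ⟨W, hWinv, hWbot, hWtop⟩ := hred
      have hq : finrank K (V ⧸ W) + finrank K W = finrank K V :=
        Submodule.finrank_quotient_add_finrank W
      have hlt := Submodule.finrank_lt hWtop
      have hpos : 0 < finrank K W := by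
        rw [Nat.pos_iff_ne_zero]
        intro h0
        exact hWbot (Submodule.finrank_eq_zero.mp h0)
      have hm : n - 1 < n := by omega
      haveI : Finite (resHom Q.subtype W hWinv).range :=
        Finite.of_surjective _ (MonoidHom.rangeRestrict_surjective _)
      haveI : Finite (quotHom Q.subtype W hWinv).range :=
        Finite.of_surjective _ (MonoidHom.rangeRestrict_surjective _)
      have hRW : IsPGroup p (resHom Q.subtype W hWinv).range :=
        hQ.of_surjective (resHom Q.subtype W hWinv).rangeRestrict (MonoidHom.rangeRestrict_surjective _)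
      have hRQ : IsPGroup p (quotHom Q.subtype W hWinv).range :=
        hQ.of_surjective (quotHom Q.subtype W hWinv).rangeRestrict (MonoidHom.rangeRestrict_surjective _)
      have d1 := derived_le_ker_of_range (resHom Q.subtype W hWinv) _
        (ih (n - 1) hm W (by omega) (resHom Q.subtype W hWinv).range hRW)
      have d2 := derived_le_ker_of_range (quotHom Q.subtype W hWinv) _
        (ih (n - 1) hm (V ⧸ W) (by omega) (quotHom Q.subtype W hWinv).range hRQ)
      rw [eq_bot_iff]
      intro a ha
      have hmono : Nat.log 2 (n - 1) + 1 ≤ Nat.log 2 n + 1 := by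
        have := Nat.log_mono_right (b := 2) (Nat.sub_le n 1)
        omega
      have ha' : a ∈ derivedSeries Q (Nat.log 2 (n - 1) + 1) := derivedSeries_antitone Q hmono ha
      have h1 := eq_one_of_res_quot p K hpK hQ Q.subtype W hWinv a (d1 ha') (d2 ha')
      rw [Subgroup.mem_bot]
      exact Subtype.ext h1
    · push Not at hred
      haveI : Nontrivial V := by
        by_contra hV
        rw [not_nontrivial_iff_subsingleton] at hV
        apply hab
        intro a b
        apply Subtype.ext
        apply Units.ext
        apply LinearMap.ext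
        intro x
        exact Subsingleton.elim _ _
      have hZ : Subgroup.center Q ≠ ⊤ := by
        intro h
        apply hab
        intro a b
        have h1 : a ∈ Subgroup.center Q := h ▸ Subgroup.mem_top a
        exact (Subgroup.mem_center_iff.mp h1 b).symm
      obtain ⟨x, hxZ, hxc⟩ : ∃ x : Q, x ∉ Subgroup.center Q ∧
          ∀ g : Q, ⁅g, x⁆ ∈ Subgroup.center Q := by
        haveI : Nontrivial (Q ⧸ Subgroup.center Q) := QuotientGroup.nontrivial_iff.mpr hZ
        have hq : IsPGroup p (Q ⧸ Subgroup.center Q) := hQ.to_quotient _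
        haveI := hq.center_nontrivial
        obtain ⟨⟨y, hy⟩, hy1⟩ := exists_ne (1 : Subgroup.center (Q ⧸ Subgroup.center Q))
        obtain ⟨x, rfl⟩ := QuotientGroup.mk_surjective y
        refine ⟨x, ?_, ?_⟩
        · intro hx
          apply hy1
          apply Subtype.ext
          exact (QuotientGroup.eq_one_iff x).mpr hx
        · intro g
          rw [← QuotientGroup.eq_one_iff]
          have h1 : ((⁅g, x⁆ : Q) : Q ⧸ Subgroup.center Q) = ⁅(g : Q ⧸ Subgroup.center Q), (x : Q ⧸ Subgroup.center Q)⁆ :=
            map_commutatorElement (QuotientGroup.mk' (Subgroup.center Q)) g x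
          rw [h1, commutatorElement_eq_one_iff_commute]
          exact Subgroup.mem_center_iff.mp hy _
      -- central elements act as scalars
      have hscal : ∀ z : Q, z ∈ Subgroup.center Q →
          ∃ μ : K, ∀ v : V, ((z : (End K V)ˣ) : End K V) v = μ • v := by
        intro z hz
        obtain ⟨μ, hμ⟩ := Module.End.exists_eigenvalue ((z : (End K V)ˣ) : End K V)
        have hWinv : ∀ γ : Q, ∀ w ∈ Module.End.eigenspace ((z : (End K V)ˣ) : End K V) μ,
            ((Q.subtype γ : (End K V)ˣ) : End K V) w ∈
              Module.End.eigenspace ((z : (End K V)ˣ) : End K V) μ := by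
          intro γ w hw
          rw [Module.End.mem_eigenspace_iff] at hw ⊢
          have hc := Subgroup.mem_center_iff.mp hz γ
          have h2 := congrArg (fun y : Q => ((y : (End K V)ˣ) : End K V) w) hc
          simp only [Subgroup.coe_mul, Units.val_mul, Module.End.mul_apply] at h2
          simp only [Subgroup.coe_subtype]
          rw [← h2, hw, map_smul]
        have htop := hred _ hWinv hμ
        exact ⟨μ, fun v => Module.End.mem_eigenspace_iff.mp (htop ▸ Submodule.mem_top)⟩
      set X : End K V := ((x : (End K V)ˣ) : End K V) with hX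
      have hζ : ∀ g : Q, ∃ ζ : K, ζ ≠ 0 ∧
          ∀ v : V, ((g : (End K V)ˣ) : End K V) (X v) = ζ • X (((g : (End K V)ˣ) : End K V) v) := by
        intro g
        obtain ⟨ζ, hζ⟩ := hscal ⁅g, x⁆ (hxc g)
        refine ⟨ζ, ?_, ?_⟩
        · rintro rfl
          obtain ⟨v, hv⟩ := exists_ne (0 : V)
          have h0 := hζ v
          rw [zero_smul] at h0
          exact hv (unit_injective K _ (by rw [h0, map_zero]))
        · intro v
          have h1 : ⁅g, x⁆ * x * g = g * x := by
            rw [commutatorElement_def]
            group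
          have h2 := congrArg (fun y : Q => ((y : (End K V)ˣ) : End K V) v) h1
          simp only [Subgroup.coe_mul, Units.val_mul, Module.End.mul_apply] at h2
          rw [← hX] at h2
          rw [← h2, hζ]
      have hss : X.IsSemisimple := by
        obtain ⟨j, hj⟩ := hQ x
        have hpow : X ^ (p ^ j) = 1 := by
          have h3 := congrArg (fun y : Q => ((y : (End K V)ˣ) : End K V)) hj
          simpa using h3
        have hsep : (Polynomial.X ^ (p ^ j) - Polynomial.C (1 : K)).Separable :=
          Polynomial.separable_X_pow_sub_C (1 : K)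
            (by rw [Nat.cast_pow]; exact pow_ne_zero _ hpK) one_ne_zero
        apply Module.End.isSemisimple_of_squarefree_aeval_eq_zero hsep.squarefree
        simp [hpow]
      have hsup := hss.iSup_eigenspace_eq_top
      have hmap : ∀ (g : Q) (μ : K), ∃ ν : K,
          (Module.End.eigenspace X μ).map ((g : (End K V)ˣ) : End K V) ≤
            Module.End.eigenspace X ν := by
        intro g μ
        obtain ⟨ζ, hζ0, hζg⟩ := hζ g
        refine ⟨ζ⁻¹ * μ, ?_⟩
        rintro _ ⟨v, hv, rfl⟩
        rw [SetLike.mem_coe, Module.End.mem_eigenspace_iff] at hv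
        rw [Module.End.mem_eigenspace_iff]
        have h1 := hζg v
        rw [hv, map_smul] at h1
        rw [mul_smul, h1, smul_smul, inv_mul_cancel₀ hζ0, one_smul]
      have hE1 : ∀ μ₀ μ : K, Module.End.eigenspace X μ₀ ≠ ⊥ → Module.End.eigenspace X μ ≠ ⊥ →
          finrank K (Module.End.eigenspace X μ₀) ≤ finrank K (Module.End.eigenspace X μ) := by
        intro μ₀ μ h0 h1
        let W : Submodule K V :=
          ⨆ g : Q, (Module.End.eigenspace X μ₀).map ((g : (End K V)ˣ) : End K V)
        have hWinv : ∀ γ : Q, ∀ w ∈ W, ((Q.subtype γ : (End K V)ˣ) : End K V) w ∈ W := by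
          intro γ w hw
          have h2 : W.map ((γ : (End K V)ˣ) : End K V) ≤ W := by
            rw [Submodule.map_iSup]
            apply iSup_le
            intro g
            rw [← Submodule.map_comp]
            exact le_iSup (fun g : Q => (Module.End.eigenspace X μ₀).map ((g : (End K V)ˣ) : End K V)) (γ * g)
          exact h2 (Submodule.mem_map_of_mem hw)
        have hWbot : W ≠ ⊥ := by
          intro h
          apply h0
          rw [eq_bot_iff, ← h]
          refine le_trans (le_of_eq ?_) (le_iSup (fun g : Q => (Module.End.eigenspace X μ₀).map ((g : (End K V)ˣ) : End K V)) (1 : Q))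
          simp only [OneMemClass.coe_one, Units.val_one, Module.End.one_eq_id, Submodule.map_id]
        have hWtop := hred W hWinv hWbot
        have hex : ∃ g : Q, (Module.End.eigenspace X μ₀).map ((g : (End K V)ˣ) : End K V) ≤
            Module.End.eigenspace X μ := by
          by_contra hno
          push Not at hno
          have hW2 : W ≤ ⨆ ν : K, ⨆ (_ : ν ≠ μ), Module.End.eigenspace X ν := by
            apply iSup_le
            intro g
            obtain ⟨ν, hν⟩ := hmap g μ₀
            have hνμ : ν ≠ μ := by
              rintro rfl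
              exact hno g hν
            exact le_trans hν (le_iSup₂_of_le ν hνμ le_rfl)
          have hind := (Module.End.eigenspaces_iSupIndep X) μ
          rw [hWtop] at hW2
          have h3 : Module.End.eigenspace X μ ≤ ⊥ := hind le_rfl (le_trans le_top hW2)
          exact h1 (eq_bot_iff.mpr h3)
        obtain ⟨g, hg⟩ := hex
        have h3 := Submodule.finrank_mono hg
        have h4 : finrank K ((Module.End.eigenspace X μ₀).map ((g : (End K V)ˣ) : End K V))
            = finrank K (Module.End.eigenspace X μ₀) :=
          (Submodule.equivMapOfInjective _ (unit_injective K _) _).finrank_eq.symm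
        omega
      obtain ⟨μ₁, hμ₁⟩ : ∃ μ₁ : K, Module.End.eigenspace X μ₁ ≠ ⊥ := by
        by_contra h
        push Not at h
        have h1 : (⨆ μ : K, Module.End.eigenspace X μ) = ⊥ := by simp [h]
        rw [h1] at hsup
        exact bot_ne_top hsup
      obtain ⟨μ₂, hμ₂, hne⟩ : ∃ μ₂ : K, Module.End.eigenspace X μ₂ ≠ ⊥ ∧ μ₂ ≠ μ₁ := by
        by_contra h
        push Not at h
        have h1 : Module.End.eigenspace X μ₁ = ⊤ := by
          rw [eq_top_iff, ← hsup]
          apply iSup_le
          intro μ
          by_cases hμ : Module.End.eigenspace X μ = ⊥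
          · rw [hμ]
            exact bot_le
          · rw [h μ hμ]
        apply hxZ
        rw [Subgroup.mem_center_iff]
        intro g
        apply Subtype.ext
        apply Units.ext
        apply LinearMap.ext
        intro v
        have hv : ∀ u : V, X u = μ₁ • u := fun u =>
          Module.End.mem_eigenspace_iff.mp (h1 ▸ Submodule.mem_top)
        simp only [Subgroup.coe_mul, Units.val_mul, Module.End.mul_apply]
        rw [← hX, hv, hv, map_smul]
      have hdis : Disjoint (Module.End.eigenspace X μ₁) (Module.End.eigenspace X μ₂) :=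
        (Module.End.eigenspaces_iSupIndep X).pairwiseDisjoint hne.symm
      have hsum := Submodule.finrank_add_finrank_le_of_disjoint hdis
      have he12 : finrank K (Module.End.eigenspace X μ₁) = finrank K (Module.End.eigenspace X μ₂) :=
        le_antisymm (hE1 _ _ hμ₁ hμ₂) (hE1 _ _ hμ₂ hμ₁)
      have hd1 : 0 < finrank K (Module.End.eigenspace X μ₁) := by
        rw [Nat.pos_iff_ne_zero]
        intro h0
        exact hμ₁ (Submodule.finrank_eq_zero.mp h0)
      have hbound : ∀ μ : K, finrank K (Module.End.eigenspace X μ) ≤ n / 2 := by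
        intro μ
        by_cases hμ : Module.End.eigenspace X μ = ⊥
        · rw [hμ, finrank_bot]
          omega
        · have h5 := hE1 μ μ₁ hμ hμ₁
          omega
      have hn2 : 2 ≤ n := by omega
      let Q₁ : Subgroup Q := Subgroup.centralizer {x}
      have hder : derivedSeries Q 1 ≤ Q₁ := by
        let ψ : Q →* Subgroup.center Q :=
          { toFun := fun g => ⟨⁅g, x⁆, hxc g⟩
            map_one' := by
              apply Subtype.ext
              simp
            map_mul' := by
              intro a b
              apply Subtype.ext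
              show ⁅a * b, x⁆ = ⁅a, x⁆ * ⁅b, x⁆
              have hb := Subgroup.mem_center_iff.mp (hxc b) a
              have h1 : ⁅a * b, x⁆ = a * ⁅b, x⁆ * a⁻¹ * ⁅a, x⁆ := by
                simp only [commutatorElement_def]
                group
              rw [h1, hb, mul_inv_cancel_right]
              exact (Subgroup.mem_center_iff.mp (hxc b) ⁅a, x⁆).symm }
        rw [derivedSeries_one, commutator_def, Subgroup.commutator_le]
        intro g _ h _
        have h1 : ψ ⁅g, h⁆ = 1 := by
          rw [map_commutatorElement, commutatorElement_eq_one_iff_commute]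
          show ψ g * ψ h = ψ h * ψ g
          apply Subtype.ext
          exact Subgroup.mem_center_iff.mp (ψ h).2 (ψ g).1
        have h2 : ⁅⁅g, h⁆, x⁆ = 1 := congrArg Subtype.val h1
        rw [commutatorElement_eq_one_iff_commute] at h2
        show ⁅g, h⁆ ∈ Subgroup.centralizer {x}
        rw [Subgroup.mem_centralizer_iff]
        intro y hy
        rw [Set.mem_singleton_iff] at hy
        rw [hy]
        exact h2.eq.symm
      have hE_inv : ∀ μ : K, ∀ γ : Q₁, ∀ w ∈ Module.End.eigenspace X μ,
          (((Q.subtype.comp Q₁.subtype) γ : (End K V)ˣ) : End K V) w ∈ Module.End.eigenspace X μ := by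
        intro μ γ w hw
        rw [Module.End.mem_eigenspace_iff] at hw ⊢
        have hc := Subgroup.mem_centralizer_iff.mp γ.2 x (Set.mem_singleton x)
        have h2 := congrArg (fun y : Q => ((y : (End K V)ˣ) : End K V) w) hc
        simp only [Subgroup.coe_mul, Units.val_mul, Module.End.mul_apply] at h2
        rw [← hX] at h2
        simp only [MonoidHom.comp_apply, Subgroup.coe_subtype]
        rw [h2, hw, map_smul]
      have hD : derivedSeries Q₁ (Nat.log 2 (n / 2) + 1) = ⊥ := by
        rw [eq_bot_iff]
        intro γ hγ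
        rw [Subgroup.mem_bot]
        have hfix : ∀ μ : K, ∀ w ∈ Module.End.eigenspace X μ,
            (((γ : Q) : (End K V)ˣ) : End K V) w = w := by
          intro μ w hw
          haveI : Finite (resHom (Q.subtype.comp Q₁.subtype) (Module.End.eigenspace X μ) (hE_inv μ)).range :=
            Finite.of_surjective _ (MonoidHom.rangeRestrict_surjective _)
          have hR : IsPGroup p (resHom (Q.subtype.comp Q₁.subtype) (Module.End.eigenspace X μ) (hE_inv μ)).range :=
            (hQ.to_subgroup Q₁).of_surjective
              (resHom (Q.subtype.comp Q₁.subtype) (Module.End.eigenspace X μ) (hE_inv μ)).rangeRestrict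
              (MonoidHom.rangeRestrict_surjective _)
          have d := derived_le_ker_of_range
            (resHom (Q.subtype.comp Q₁.subtype) (Module.End.eigenspace X μ) (hE_inv μ)) _
            (ih (n / 2) (by omega) (Module.End.eigenspace X μ) (hbound μ) _ hR)
          exact fix_of_res _ _ (hE_inv μ) γ (d hγ) w hw
        have hall : ∀ v : V, (((γ : Q) : (End K V)ˣ) : End K V) v = v := by
          intro v
          have hv : v ∈ ⨆ μ : K, Module.End.eigenspace X μ := by
            rw [hsup]
            exact Submodule.mem_top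
          have hle : (⨆ μ : K, Module.End.eigenspace X μ) ≤
              LinearMap.ker ((((γ : Q) : (End K V)ˣ) : End K V) - 1) := by
            apply iSup_le
            intro μ w hw
            rw [LinearMap.mem_ker, LinearMap.sub_apply, hfix μ w hw]
            simp
          have h6 := hle hv
          rw [LinearMap.mem_ker, LinearMap.sub_apply, sub_eq_zero] at h6
          simpa using h6
        apply Subtype.ext
        apply Subtype.ext
        apply Units.ext
        apply LinearMap.ext
        intro v
        simpa using hall v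
      have hfinal := derived_add_le_map Q₁ 1 hder (Nat.log 2 (n / 2) + 1)
      rw [hD, Subgroup.map_bot] at hfinal
      have hlog : Nat.log 2 n + 1 = 1 + (Nat.log 2 (n / 2) + 1) := by
        rw [Nat.log_div_base]
        have h7 : 0 < Nat.log 2 n := Nat.log_pos (by norm_num) hn2
        omega
      rw [hlog]
      exact eq_bot_iff.mpr hfinal

end NeChar

end Cfsg.Agent.Lib.Helper58.LinPGroup
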