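import Mathlib

set_option autoImplicit false

/-!
Power graphs of finite groups: a graph-theoretic criterion for the existence of an element of
order `p * q` (twin classes of the closed-neighbourhood relation).
-/

namespace Cfsg.Agent.Lib.Helper58.PowerGraph

open Subgroup

variable {G : Type*} [Group G]

/-- adjacency in the (reflexive) power graph -/
def adj (x y : G) : Prop := x ∈ zpowers y ∨ y ∈ zpowers x

/-- closed twins -/
def twin (x y : G) : Prop := ∀ z, adj x z ↔ adj y z

/-- dominating vertices -/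
def dom (x : G) : Prop := ∀ z, adj x z

/-- the twin class -/
def tw (x : G) : Set G := {y | twin x y}

/-- graph-theoretic description of "element of order `p`" -/
def isMin (p : ℕ) (a : G) : Prop :=
  ¬ dom a ∧ (tw a).ncard = p - 1 ∧
    ∀ z, adj a z → ¬ dom z → ¬ twin a z → (tw a).ncard ≤ (tw z).ncard

/-- graph-theoretic description of "there is an element of order `p * q`" -/
def psi (G : Type*) [Group G] (p q : ℕ) : Prop :=
  ∃ a b g : G, isMin p a ∧ isMin q b ∧ ¬ dom g ∧ adj a g ∧ adj b g

theorem adj_comm {x y : G} : adj x y ↔ adj y x := or_comm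

theorem adj_self (x : G) : adj x x := Or.inl (mem_zpowers x)

theorem twin_refl (x : G) : twin x x := fun _ => Iff.rfl

theorem twin.symm {x y : G} (h : twin x y) : twin y x := fun z => (h z).symm

theorem twin.trans {x y z : G} (h : twin x y) (h' : twin y z) : twin x z :=
  fun w => (h w).trans (h' w)

theorem twin.adj {x y : G} (h : twin x y) : adj x y := (h y).2 (adj_self y)

theorem dom_one : dom (1 : G) := fun z => Or.inl (one_mem _)

theorem twin_of_zpowers_eq {x y : G} (h : zpowers x = zpowers y) : twin x y := by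
  intro z
  unfold adj
  rw [h]
  constructor
  · rintro (h1 | h1)
    · left
      have : zpowers x ≤ zpowers z := by rw [zpowers_le]; exact h1
      rw [h] at this
      exact this (mem_zpowers y)
    · right; exact h1
  · rintro (h1 | h1)
    · left
      have : zpowers y ≤ zpowers z := by rw [zpowers_le]; exact h1
      rw [← h] at this
      exact this (mem_zpowers x)
    · right; exact h1

theorem zpowers_eq_of_mem_of_dvd [Finite G] {x y : G} (h : x ∈ zpowers y)
    (hd : orderOf y ∣ orderOf x) : zpowers x = zpowers y := by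
  have hle : zpowers x ≤ zpowers y := by rw [zpowers_le]; exact h
  apply Subgroup.eq_of_le_of_card_ge hle
  rw [Nat.card_zpowers, Nat.card_zpowers]
  exact Nat.le_of_dvd (orderOf_pos x) hd

theorem mem_zpowers_trans {x y z : G} (h : x ∈ zpowers y) (h' : y ∈ zpowers z) :
    x ∈ zpowers z := by
  have : zpowers y ≤ zpowers z := by rw [zpowers_le]; exact h'
  exact this h

/-- in a finite cyclic group, divisibility of orders gives containment -/
theorem mem_zpowers_of_dvd [Finite G] {y u v : G} (hu : u ∈ zpowers y) (hv : v ∈ zpowers y)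
    (h : orderOf u ∣ orderOf v) : u ∈ zpowers v := by
  obtain ⟨i, hi⟩ := (Submonoid.mem_powers_iff _ _).1 ((mem_powers_iff_mem_zpowers).2 hu)
  obtain ⟨j, hj⟩ := (Submonoid.mem_powers_iff _ _).1 ((mem_powers_iff_mem_zpowers).2 hv)
  subst hi; subst hj
  obtain ⟨N, hN⟩ : ∃ N, N = orderOf y := ⟨_, rfl⟩
  have hNpos : 0 < N := hN ▸ orderOf_pos y
  rw [orderOf_pow, orderOf_pow, ← hN] at h
  have hgi : Nat.gcd N i ∣ N := Nat.gcd_dvd_left _ _
  have hgj : Nat.gcd N j ∣ N := Nat.gcd_dvd_left _ _
  have hdvd : Nat.gcd N j ∣ Nat.gcd N i := by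
    obtain ⟨c, hc⟩ := h
    have h1 : N / Nat.gcd N i * Nat.gcd N i = N := Nat.div_mul_cancel hgi
    have h2 : N / Nat.gcd N j * Nat.gcd N j = N := Nat.div_mul_cancel hgj
    have hpos : 0 < N / Nat.gcd N i := Nat.div_pos (Nat.le_of_dvd hNpos hgi)
      (Nat.gcd_pos_of_pos_left _ hNpos)
    refine ⟨c, ?_⟩
    have : N / Nat.gcd N i * Nat.gcd N i = N / Nat.gcd N i * (Nat.gcd N j * c) := by
      rw [h1]
      calc N = N / Nat.gcd N j * Nat.gcd N j := h2.symm
        _ = N / Nat.gcd N i * c * Nat.gcd N j := by rw [hc]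
        _ = N / Nat.gcd N i * (Nat.gcd N j * c) := by ring
    exact Nat.eq_of_mul_eq_mul_left hpos this
  have hji : Nat.gcd N j ∣ i := hdvd.trans (Nat.gcd_dvd_right _ _)
  -- `y ^ gcd N j ∈ zpowers (y ^ j)`
  have hg : y ^ Nat.gcd N j ∈ zpowers (y ^ j) := by
    rw [mem_zpowers_iff]
    refine ⟨Nat.gcdB N j, ?_⟩
    have hb := Nat.gcd_eq_gcd_ab N j
    have : y ^ ((Nat.gcd N j : ℕ) : ℤ) = y ^ ((N : ℤ) * Nat.gcdA N j + (j : ℤ) * Nat.gcdB N j) := by
      rw [hb]
    rw [zpow_natCast] at this
    rw [this, zpow_add, zpow_mul, zpow_mul, zpow_natCast, zpow_natCast, hN, pow_orderOf_eq_one,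
      one_zpow, one_mul]
  obtain ⟨c, hc⟩ := hji
  have : y ^ i = (y ^ Nat.gcd N j) ^ c := by rw [← pow_mul, ← hc]
  rw [this]
  exact pow_mem hg c

theorem orderOf_pow_div [Finite G] (a : G) {r : ℕ} (hr : r ∣ orderOf a) (hr0 : r ≠ 0) :
    orderOf (a ^ (orderOf a / r)) = r := by
  have hn : 0 < orderOf a := orderOf_pos a
  have h1 : orderOf a / r ∣ orderOf a := Nat.div_dvd_of_dvd hr
  have h0 : orderOf a / r ≠ 0 :=
    (Nat.div_pos (Nat.le_of_dvd hn hr) (Nat.pos_of_ne_zero hr0)).ne'
  rw [orderOf_pow_of_dvd h0 h1, Nat.div_div_self hr hn.ne']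

theorem ncard_zpowers_diff [Finite G] (y : G) :
    ((zpowers y : Set G) \ {1}).ncard = orderOf y - 1 := by
  rw [Set.ncard_sdiff_singleton_of_mem (one_mem _), ← Nat.card_zpowers]
  rfl

/-- a proper twin below `x` forces `x` to have prime power order -/
theorem isPrimePow_of_twin [Finite G] (hS : ∀ x : G, dom x → x = 1) {x y : G} (hx : x ≠ 1)
    (ht : twin x y) (hy : y ∈ zpowers x) (hne : zpowers y ≠ zpowers x) :
    IsPrimePow (orderOf x) := by
  by_contra hnp
  have hy1 : y ≠ 1 := by
    rintro rfl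
    exact hx (hS x (fun z => (ht z).2 (dom_one z)))
  have hn : 0 < orderOf x := orderOf_pos x
  have hdn : orderOf y ∣ orderOf x := orderOf_dvd_of_mem_zpowers hy
  have hd1 : orderOf y ≠ 1 := by rwa [Ne, orderOf_eq_one_iff]
  have hdne : orderOf y ≠ orderOf x :=
    fun h => hne (zpowers_eq_of_mem_of_dvd hy (h ▸ dvd_rfl))
  have hcomp : ∀ w ∈ zpowers x, orderOf y ∣ orderOf w ∨ orderOf w ∣ orderOf y := by
    intro w hw
    rcases (ht w).1 (Or.inr hw) with h | h
    · exact Or.inl (orderOf_dvd_of_mem_zpowers h)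
    · exact Or.inr (orderOf_dvd_of_mem_zpowers h)
  obtain ⟨c, hc⟩ := hdn
  have hc1 : c ≠ 1 := by rintro rfl; exact hdne (by simpa using hc.symm)
  obtain ⟨r, hr⟩ : ∃ r, r = c.minFac := ⟨_, rfl⟩
  have hrp : r.Prime := hr ▸ Nat.minFac_prime hc1
  have hrc : r ∣ c := hr ▸ Nat.minFac_dvd c
  have hrn : r ∣ orderOf x := hrc.trans ⟨orderOf y, by rw [hc, mul_comm]⟩
  have hv : ordProj[r] (orderOf x) ∣ orderOf x := Nat.ordProj_dvd _ _
  have hw := orderOf_pow_div x hv (pow_pos hrp.pos _).ne'
  rcases hcomp _ (pow_mem (mem_zpowers x) (orderOf x / ordProj[r] (orderOf x))) with h | h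
  · rw [hw] at h
    obtain ⟨j, -, hj⟩ := (Nat.dvd_prime_pow hrp).1 h
    have hj0 : j ≠ 0 := by rintro rfl; exact hd1 (by simpa using hj)
    have hco : ordCompl[r] (orderOf x) ≠ 1 := by
      intro h1
      apply hnp
      have h2 : orderOf x = r ^ (orderOf x).factorization r := by
        have := Nat.ordProj_mul_ordCompl_eq_self (orderOf x) r
        rw [h1, mul_one] at this
        exact this.symm
      have hf0 : (orderOf x).factorization r ≠ 0 := by
        intro h0
        have := (hrp.dvd_iff_one_le_factorization hn.ne').1 hrn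
        omega
      rw [h2]
      exact hrp.isPrimePow.pow hf0
    obtain ⟨s, hs⟩ : ∃ s, s = (ordCompl[r] (orderOf x)).minFac := ⟨_, rfl⟩
    have hsp : s.Prime := hs ▸ Nat.minFac_prime hco
    have hsc : s ∣ ordCompl[r] (orderOf x) := by rw [hs]; exact Nat.minFac_dvd _
    have hsn : s ∣ orderOf x := hsc.trans (Nat.ordCompl_dvd _ _)
    have hsr : s ≠ r := by
      intro h
      apply Nat.not_dvd_ordCompl hrp hn.ne'
      have := hsc
      rw [h] at this
      exact this
    have hw' := orderOf_pow_div x hsn hsp.ne_zero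
    rcases hcomp _ (pow_mem (mem_zpowers x) (orderOf x / s)) with h' | h'
    · rw [hw', hj] at h'
      have : r ∣ s := (dvd_pow_self r hj0).trans h'
      exact hsr ((Nat.prime_dvd_prime_iff_eq hrp hsp).1 this).symm
    · rw [hw', hj] at h'
      exact hsr ((Nat.prime_dvd_prime_iff_eq hsp hrp).1 (hsp.dvd_of_dvd_pow h'))
  · rw [hw] at h
    apply Nat.pow_succ_factorization_not_dvd hn.ne' hrp
    rw [pow_succ]
    exact (mul_dvd_mul h hrc).trans (dvd_of_eq hc.symm)

/-- the twin class lies in the cyclic group of a twin of maximal order -/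
theorem exists_max_twin [Finite G] (hS : ∀ x : G, dom x → x = 1) {x : G} (hx : x ≠ 1) :
    ∃ y, twin x y ∧ y ≠ 1 ∧ tw x ⊆ (zpowers y : Set G) \ {1} := by
  classical
  have hfin : (tw x).Finite := Set.toFinite _
  obtain ⟨y, hy, hmax⟩ := Set.exists_max_image (tw x) orderOf hfin ⟨x, twin_refl x⟩
  have h1 : ∀ w, twin x w → w ≠ 1 := by
    rintro w hw rfl
    exact hx (hS x (fun z => (hw z).2 (dom_one z)))
  refine ⟨y, hy, h1 y hy, ?_⟩
  intro w hw
  refine ⟨?_, h1 w hw⟩
  have hwy : twin w y := (twin.symm hw).trans hy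
  rcases hwy.adj with h | h
  · exact h
  · have hd : orderOf y ∣ orderOf w := orderOf_dvd_of_mem_zpowers h
    have hle : orderOf w ≤ orderOf y := hmax w hw
    have heq : orderOf w = orderOf y :=
      Nat.le_antisymm hle (Nat.le_of_dvd (orderOf_pos w) hd)
    have : zpowers y = zpowers w := zpowers_eq_of_mem_of_dvd h (by rw [heq])
    rw [SetLike.mem_coe, this]
    exact mem_zpowers w

/-- interval property of twin classes inside a cyclic group of prime power order -/
theorem twin_interval [Finite G] {x y w : G} (ht : twin x y) (hxy : x ∈ zpowers y)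
    (hpp : IsPrimePow (orderOf y)) (hw : w ∈ zpowers y) (hxw : x ∈ zpowers w) : twin x w := by
  have chain : ∀ u ∈ zpowers y, ∀ v ∈ zpowers y, u ∈ zpowers v ∨ v ∈ zpowers u := by
    intro u hu v hv
    obtain ⟨r, m, hr, hm, hrm⟩ := hpp
    have hrp : r.Prime := hr.nat_prime
    have hu' : orderOf u ∣ r ^ m := hrm ▸ orderOf_dvd_of_mem_zpowers hu
    have hv' : orderOf v ∣ r ^ m := hrm ▸ orderOf_dvd_of_mem_zpowers hv
    obtain ⟨a, -, ha⟩ := (Nat.dvd_prime_pow hrp).1 hu'
    obtain ⟨b, -, hb⟩ := (Nat.dvd_prime_pow hrp).1 hv'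
    rcases le_total a b with h | h
    · left; exact mem_zpowers_of_dvd hu hv (by rw [ha, hb]; exact pow_dvd_pow r h)
    · right; exact mem_zpowers_of_dvd hv hu (by rw [ha, hb]; exact pow_dvd_pow r h)
  intro z
  constructor
  · intro h
    rcases (ht z).1 h with h1 | h1
    · exact Or.inl (mem_zpowers_trans hw h1)
    · rcases chain w hw z h1 with h2 | h2
      · exact Or.inl h2
      · exact Or.inr h2
  · intro h
    rcases h with h1 | h1
    · exact Or.inl (mem_zpowers_trans hxw h1)
    · have hz : z ∈ zpowers y := mem_zpowers_trans h1 hw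
      rcases chain x hxy z hz with h2 | h2
      · exact Or.inl h2
      · exact Or.inr h2

theorem totient_le_ncard_tw [Finite G] (x : G) : Nat.totient (orderOf x) ≤ (tw x).ncard := by
  classical
  have hsub : (fun k : ℕ => x ^ k) ''
      (((Finset.range (orderOf x)).filter (orderOf x).Coprime : Finset ℕ) : Set ℕ) ⊆ tw x := by
    rintro _ ⟨k, hk, rfl⟩
    simp only [Finset.coe_filter, Finset.mem_range, Set.mem_ofPred_eq] at hk
    apply twin_of_zpowers_eq
    symm
    apply zpowers_eq_of_mem_of_dvd (pow_mem (mem_zpowers x) k)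
    rw [Nat.Coprime.orderOf_pow hk.2]
  have hinj : Set.InjOn (fun k : ℕ => x ^ k)
      (((Finset.range (orderOf x)).filter (orderOf x).Coprime : Finset ℕ) : Set ℕ) := by
    intro a ha b hb hab
    simp only [Finset.coe_filter, Finset.mem_range, Set.mem_ofPred_eq] at ha hb
    exact pow_injOn_Iio_orderOf ha.1 hb.1 hab
  calc Nat.totient (orderOf x)
      = (((Finset.range (orderOf x)).filter (orderOf x).Coprime : Finset ℕ) : Set ℕ).ncard := by
        rw [Set.ncard_coe_finset]; rfl
    _ = ((fun k : ℕ => x ^ k) ''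
          (((Finset.range (orderOf x)).filter (orderOf x).Coprime : Finset ℕ) : Set ℕ)).ncard :=
        (Set.ncard_image_of_injOn hinj).symm
    _ ≤ (tw x).ncard := Set.ncard_le_ncard hsub (Set.toFinite _)

/-- a proper divisor of `n` that is a power of the least prime factor is at most `φ n` -/
theorem le_totient_of_minFac {n j : ℕ} (hn : 1 < n) (hdn : n.minFac ^ j ∣ n)
    (hne : n.minFac ^ j ≠ n) : n.minFac ^ j ≤ Nat.totient n := by
  obtain ⟨r, hr⟩ : ∃ r, r = n.minFac := ⟨_, rfl⟩
  rw [← hr] at hdn hne ⊢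
  have hn0 : n ≠ 0 := by omega
  have hrp : r.Prime := hr ▸ Nat.minFac_prime (by omega)
  have hrn : r ∣ n := hr ▸ Nat.minFac_dvd n
  obtain ⟨v, hv⟩ : ∃ v, v = n.factorization r := ⟨_, rfl⟩
  have hv1 : 1 ≤ v := hv ▸ (hrp.dvd_iff_one_le_factorization hn0).1 hrn
  have hjv : j ≤ v := hv ▸ (hrp.pow_dvd_iff_le_factorization hn0).1 hdn
  have hsplit : r ^ v * ordCompl[r] n = n := hv ▸ Nat.ordProj_mul_ordCompl_eq_self n r
  have hcop : Nat.Coprime (r ^ v) (ordCompl[r] n) :=
    Nat.Coprime.pow_left _ (Nat.coprime_ordCompl hrp hn0)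
  have htot : Nat.totient n = r ^ (v - 1) * (r - 1) * Nat.totient (ordCompl[r] n) := by
    conv_lhs => rw [← hsplit]
    rw [Nat.totient_mul hcop, Nat.totient_prime_pow hrp (by omega)]
  have hr2 : 2 ≤ r := hrp.two_le
  by_cases hc : ordCompl[r] n = 1
  · rw [hc, mul_one] at hsplit
    have hjv' : j ≤ v - 1 := by
      have : j ≠ v := by rintro rfl; exact hne hsplit
      omega
    rw [htot, hc, Nat.totient_one, mul_one]
    calc r ^ j ≤ r ^ (v - 1) := Nat.pow_le_pow_right hrp.pos hjv'
      _ = r ^ (v - 1) * 1 := (mul_one _).symm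
      _ ≤ r ^ (v - 1) * (r - 1) := Nat.mul_le_mul_left _ (by omega)
  · have hcpos : 0 < ordCompl[r] n := Nat.ordCompl_pos r hn0
    have hc2 : ordCompl[r] n ≠ 2 := by
      intro h2
      have h2n : 2 ∣ n := by rw [← hsplit, h2]; exact dvd_mul_left _ _
      have : r ≤ 2 := hr ▸ Nat.minFac_le_of_dvd (by norm_num) h2n
      have hr' : r = 2 := by omega
      apply Nat.not_dvd_ordCompl hrp hn0
      rw [h2, hr']
    have htc : 2 ≤ Nat.totient (ordCompl[r] n) := by
      have h1 : 0 < Nat.totient (ordCompl[r] n) := Nat.totient_pos.2 hcpos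
      have h2 : Nat.totient (ordCompl[r] n) ≠ 1 := by
        intro h
        rcases Nat.totient_eq_one_iff.1 h with h | h
        · exact hc h
        · exact hc2 h
      omega
    rw [htot]
    calc r ^ j ≤ r ^ v := Nat.pow_le_pow_right hrp.pos hjv
      _ = r ^ (v - 1) * r := by rw [← pow_succ]; congr 1; omega
      _ ≤ r ^ (v - 1) * ((r - 1) * 2) := Nat.mul_le_mul_left _ (by omega)
      _ = r ^ (v - 1) * (r - 1) * 2 := by ring
      _ ≤ r ^ (v - 1) * (r - 1) * Nat.totient (ordCompl[r] n) := Nat.mul_le_mul_left _ htc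

/-- if only the identity dominates, a "minimal" vertex with twin class of size `p - 1` has
order `p` -/
theorem orderOf_eq_of_isMin [Finite G] (hS : ∀ x : G, dom x → x = 1) {p : ℕ} (hp : p.Prime)
    {a : G} (h : isMin p a) : orderOf a = p := by
  obtain ⟨hnd, hcard, hmin⟩ := h
  have ha1 : a ≠ 1 := by rintro rfl; exact hnd dom_one
  have hn1 : orderOf a ≠ 1 := by rwa [Ne, orderOf_eq_one_iff]
  obtain ⟨r, hr⟩ : ∃ r, r = (orderOf a).minFac := ⟨_, rfl⟩
  have hrp : r.Prime := hr ▸ Nat.minFac_prime hn1
  have hrn : r ∣ orderOf a := hr ▸ Nat.minFac_dvd _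
  obtain ⟨z, hz⟩ : ∃ z, z = a ^ (orderOf a / r) := ⟨_, rfl⟩
  have hzo : orderOf z = r := by rw [hz]; exact orderOf_pow_div a hrn hrp.ne_zero
  have hza : z ∈ zpowers a := by rw [hz]; exact pow_mem (mem_zpowers a) _
  have hz1 : z ≠ 1 := by
    intro h
    rw [h, orderOf_one] at hzo
    exact hrp.one_lt.ne hzo
  have hzd : ¬ dom z := fun h => hz1 (hS z h)
  -- Step A: `a` and `z` are twins
  have hA : twin a z := by
    by_contra hnt
    have hle := hmin z (Or.inr hza) hzd hnt
    obtain ⟨y', hty', hy'1, hsub'⟩ := exists_max_twin hS hz1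
    have hle2 : (tw z).ncard ≤ orderOf y' - 1 := by
      rw [← ncard_zpowers_diff]
      exact Set.ncard_le_ncard hsub' (Set.toFinite _)
    have hzy' : z ∈ zpowers y' := (hsub' (twin_refl z)).1
    have hy'pos : 0 < orderOf y' := orderOf_pos y'
    by_cases hay : a ∈ zpowers y'
    · by_cases heq : zpowers z = zpowers y'
      · apply hnt
        apply twin_of_zpowers_eq
        apply le_antisymm
        · rw [zpowers_le, heq]; exact hay
        · rw [zpowers_le]; exact hza
      · have hpp := isPrimePow_of_twin hS hy'1 hty'.symm hzy' heq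
        exact hnt (twin_interval hty' hzy' hpp hay hza).symm
    · have hya : y' ∈ zpowers a := by
        rcases (hty' a).1 (Or.inl hza) with h | h
        · exact h
        · exact absurd h hay
      have hpow : ∃ j, orderOf y' = r ^ j := by
        by_cases heq : zpowers z = zpowers y'
        · refine ⟨1, ?_⟩
          rw [pow_one, ← hzo, ← Nat.card_zpowers, ← Nat.card_zpowers, heq]
        · have hpp := isPrimePow_of_twin hS hy'1 hty'.symm hzy' heq
          have hrd : r ∣ orderOf y' := hzo ▸ orderOf_dvd_of_mem_zpowers hzy'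
          obtain ⟨s, m, hs, hm, hsm⟩ := hpp
          have hsp : s.Prime := hs.nat_prime
          rw [← hsm] at hrd
          have hrs : r = s := (Nat.prime_dvd_prime_iff_eq hrp hsp).1 (hrp.dvd_of_dvd_pow hrd)
          exact ⟨m, by rw [hrs, hsm]⟩
      obtain ⟨j, hj⟩ := hpow
      have hdv : orderOf y' ∣ orderOf a := orderOf_dvd_of_mem_zpowers hya
      have hne : orderOf y' ≠ orderOf a := by
        intro h
        apply hay
        have := zpowers_eq_of_mem_of_dvd hya (dvd_of_eq h.symm)
        rw [this]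
        exact mem_zpowers a
      have hn2 : 1 < orderOf a := by have := orderOf_pos a; omega
      rw [hj, hr] at hdv hne
      have h1 := le_totient_of_minFac hn2 hdv hne
      rw [← hr, ← hj] at h1
      have h2 := totient_le_ncard_tw a
      omega
  -- Step B: the twin class of `a` is a full cyclic group of prime power order minus `1`
  obtain ⟨y, hty, hy1, hsub⟩ := exists_max_twin hS ha1
  have hay : a ∈ zpowers y := (hsub (twin_refl a)).1
  have hzy : z ∈ zpowers y := mem_zpowers_trans hza hay
  have hpp : IsPrimePow (orderOf y) := by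
    by_cases heq : zpowers a = zpowers y
    · by_cases heq2 : zpowers z = zpowers a
      · have : orderOf y = r := by
          rw [← hzo, ← Nat.card_zpowers, ← Nat.card_zpowers, heq2, heq]
        rw [this]; exact hrp.isPrimePow
      · have := isPrimePow_of_twin hS ha1 hA hza heq2
        rwa [← Nat.card_zpowers, heq, Nat.card_zpowers] at this
    · exact isPrimePow_of_twin hS hy1 hty.symm hay heq
  obtain ⟨s, m, hs, hm, hsm⟩ := id hpp
  have hsp : s.Prime := hs.nat_prime
  have hrs : r = s := by
    have hrd : r ∣ orderOf y := hzo ▸ orderOf_dvd_of_mem_zpowers hzy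
    rw [← hsm] at hrd
    exact (Nat.prime_dvd_prime_iff_eq hrp hsp).1 (hrp.dvd_of_dvd_pow hrd)
  rw [← hrs] at hsm
  have hall : (zpowers y : Set G) \ {1} ⊆ tw a := by
    rintro w ⟨hw, hw1⟩
    have hw1' : w ≠ 1 := hw1
    have hzw : z ∈ zpowers w := by
      apply mem_zpowers_of_dvd hzy hw
      rw [hzo]
      have hwd : orderOf w ∣ r ^ m := hsm ▸ orderOf_dvd_of_mem_zpowers hw
      obtain ⟨i, -, hi⟩ := (Nat.dvd_prime_pow hrp).1 hwd
      have hi0 : i ≠ 0 := by
        rintro rfl
        rw [pow_zero, orderOf_eq_one_iff] at hi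
        exact hw1' hi
      rw [hi]; exact dvd_pow_self r hi0
    have : twin z w := twin_interval (hA.symm.trans hty) hzy hpp hw hzw
    exact hA.trans this
  have heqs : tw a = (zpowers y : Set G) \ {1} := Set.Subset.antisymm hsub hall
  rw [heqs, ncard_zpowers_diff] at hcard
  have hyo : orderOf y = p := by
    have := orderOf_pos y
    have := hp.pos
    omega
  have : orderOf a ∣ p := hyo ▸ orderOf_dvd_of_mem_zpowers hay
  exact ((Nat.dvd_prime hp).1 this).resolve_left hn1

/-- an element of order `p` inside a cyclic group of order `p * q` is "minimal" -/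
theorem isMin_of_orderOf [Finite G] (hS : ∀ x : G, dom x → x = 1) {p q : ℕ} (hp : p.Prime)
    (hq : q.Prime) (hpq : p ≠ q) {g : G} (hg : orderOf g = p * q) : isMin p (g ^ q) := by
  obtain ⟨a, ha⟩ : ∃ a, a = g ^ q := ⟨_, rfl⟩
  rw [← ha]
  have hao : orderOf a = p := by
    rw [ha, orderOf_pow_of_dvd hq.ne_zero (hg ▸ dvd_mul_left q p), hg,
      Nat.mul_div_cancel _ hq.pos]
  have hag : a ∈ zpowers g := by rw [ha]; exact pow_mem (mem_zpowers g) _
  have ha1 : a ≠ 1 := by
    intro h
    rw [h, orderOf_one] at hao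
    exact hp.one_lt.ne hao
  have hand : ¬ dom a := fun h => ha1 (hS a h)
  have htw : tw a = (zpowers a : Set G) \ {1} := by
    apply Set.Subset.antisymm
    · intro w hw
      have hw' : twin a w := hw
      have hw1 : w ≠ 1 := by
        rintro rfl
        exact hand (fun z => (hw' z).2 (dom_one z))
      refine ⟨?_, hw1⟩
      rcases hw'.adj with h | h
      · by_contra hwa
        have hne : zpowers a ≠ zpowers w := fun h' => hwa (by
          rw [SetLike.mem_coe, h']; exact mem_zpowers w)
        have hpp := isPrimePow_of_twin hS hw1 hw'.symm h hne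
        obtain ⟨s, m, hs, hm, hsm⟩ := hpp
        have hsp := hs.nat_prime
        have hps : p = s := by
          have hpd : p ∣ orderOf w := hao ▸ orderOf_dvd_of_mem_zpowers h
          rw [← hsm] at hpd
          exact (Nat.prime_dvd_prime_iff_eq hp hsp).1 (hp.dvd_of_dvd_pow hpd)
        rw [← hps] at hsm
        rcases (hw' g).1 (Or.inl hag) with h2 | h2
        · have hd : p ^ m ∣ p * q := by rw [hsm, ← hg]; exact orderOf_dvd_of_mem_zpowers h2
          have hm1 : m = 1 := by
            by_contra hm1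
            have hm2 : 2 ≤ m := by omega
            have h3 : p ^ 2 ∣ p * q := (pow_dvd_pow p hm2).trans hd
            rw [pow_two] at h3
            have h4 : p ∣ q := Nat.dvd_of_mul_dvd_mul_left hp.pos h3
            exact hpq ((Nat.prime_dvd_prime_iff_eq hp hq).1 h4)
          apply hne
          apply zpowers_eq_of_mem_of_dvd h
          rw [hao, ← hsm, hm1, pow_one]
        · have hd : p * q ∣ p ^ m := by rw [hsm, ← hg]; exact orderOf_dvd_of_mem_zpowers h2
          have h3 : q ∣ p ^ m := (dvd_mul_left q p).trans hd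
          exact hpq ((Nat.prime_dvd_prime_iff_eq hq hp).1 (hq.dvd_of_dvd_pow h3)).symm
      · exact h
    · rintro w ⟨hw, hw1⟩
      have hw1' : w ≠ 1 := hw1
      have hwo : orderOf w = p := by
        have : orderOf w ∣ p := hao ▸ orderOf_dvd_of_mem_zpowers hw
        exact ((Nat.dvd_prime hp).1 this).resolve_left (by rwa [orderOf_eq_one_iff])
      exact twin_of_zpowers_eq
        (zpowers_eq_of_mem_of_dvd hw (dvd_of_eq (hao.trans hwo.symm))).symm
  refine ⟨hand, ?_, ?_⟩
  · rw [htw, ncard_zpowers_diff, hao]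
  · intro z hadj hzd hzt
    rw [htw, ncard_zpowers_diff, hao]
    have haz : a ∈ zpowers z := by
      rcases hadj with h | h
      · exact h
      · exfalso
        have hz1 : z ≠ 1 := by rintro rfl; exact hzd dom_one
        have hzo : orderOf z = p := by
          have : orderOf z ∣ p := hao ▸ orderOf_dvd_of_mem_zpowers h
          exact ((Nat.dvd_prime hp).1 this).resolve_left (by rwa [orderOf_eq_one_iff])
        exact hzt (twin_of_zpowers_eq
          (zpowers_eq_of_mem_of_dvd h (dvd_of_eq (hao.trans hzo.symm))).symm)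
    have hpd : p ∣ orderOf z := hao ▸ orderOf_dvd_of_mem_zpowers haz
    calc p - 1 = Nat.totient p := (Nat.totient_prime hp).symm
      _ ≤ Nat.totient (orderOf z) :=
        Nat.le_of_dvd (Nat.totient_pos.2 (orderOf_pos z)) (Nat.totient_dvd_of_dvd hpd)
      _ ≤ (tw z).ncard := totient_le_ncard_tw z

/-- when only the identity dominates, `psi` detects elements of order `p * q` -/
theorem psi_iff [Finite G] (hS : ∀ x : G, dom x → x = 1) {p q : ℕ} (hp : p.Prime)
    (hq : q.Prime) (hpq : p ≠ q) : psi G p q ↔ ∃ g : G, orderOf g = p * q := by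
  constructor
  · rintro ⟨a, b, g, ha, hb, hg, hag, hbg⟩
    have hao := orderOf_eq_of_isMin hS hp ha
    have hbo := orderOf_eq_of_isMin hS hq hb
    have hg1 : g ≠ 1 := by rintro rfl; exact hg dom_one
    have key : ∀ (r : ℕ) (c : G), r.Prime → orderOf c = r → adj c g → r ∣ orderOf g := by
      intro r c hr hc hadj
      rcases hadj with h | h
      · exact hc ▸ orderOf_dvd_of_mem_zpowers h
      · have h1 : orderOf g ∣ r := hc ▸ orderOf_dvd_of_mem_zpowers h
        rw [((Nat.dvd_prime hr).1 h1).resolve_left (by rwa [orderOf_eq_one_iff])]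
    have h1 := key p a hp hao hag
    have h2 := key q b hq hbo hbg
    have hdvd : p * q ∣ orderOf g :=
      Nat.Coprime.mul_dvd_of_dvd_of_dvd ((Nat.coprime_primes hp hq).2 hpq) h1 h2
    exact ⟨g ^ (orderOf g / (p * q)),
      orderOf_pow_div g hdvd (Nat.mul_pos hp.pos hq.pos).ne'⟩
  · rintro ⟨g, hg⟩
    refine ⟨g ^ q, g ^ p, g, isMin_of_orderOf hS hp hq hpq hg,
      isMin_of_orderOf hS hq hp hpq.symm (by rw [hg, mul_comm]), ?_,
      Or.inl (pow_mem (mem_zpowers g) _), Or.inl (pow_mem (mem_zpowers g) _)⟩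
    intro hd
    have h1 := hS g hd
    rw [h1, orderOf_one] at hg
    have h4 : 2 * 2 ≤ p * q := Nat.mul_le_mul hp.two_le hq.two_le
    omega

/-- when a non-identity element dominates, elements of order `p * q` are detected by the
order of the group -/
theorem exists_orderOf_iff_of_dom [Finite G] {x : G} (hx : x ≠ 1) (hd : dom x) {p q : ℕ}
    (hp : p.Prime) (hq : q.Prime) (hpq : p ≠ q) :
    (∃ g : G, orderOf g = p * q) ↔ p * q ∣ Nat.card G := by
  constructor
  · rintro ⟨g, hg⟩
    rw [← hg]; exact orderOf_dvd_natCard g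
  · intro hdvd
    by_cases hpp : IsPrimePow (orderOf x)
    · exfalso
      obtain ⟨r, k, hr, hk, hrk⟩ := hpp
      have hrp := hr.nat_prime
      have key : ∀ s : ℕ, s.Prime → s ∣ Nat.card G → s = r := by
        intro s hs hsd
        haveI : Fact s.Prime := ⟨hs⟩
        obtain ⟨c, hc⟩ := exists_prime_orderOf_dvd_card' s hsd
        rcases hd c with h | h
        · have h1 : orderOf x ∣ s := hc ▸ orderOf_dvd_of_mem_zpowers h
          have h2 : orderOf x = s :=
            ((Nat.dvd_prime hs).1 h1).resolve_left (by rwa [orderOf_eq_one_iff])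
          have h3 : r ∣ s := by rw [← h2, ← hrk]; exact dvd_pow_self r hk.ne'
          exact ((Nat.prime_dvd_prime_iff_eq hrp hs).1 h3).symm
        · have h1 : s ∣ orderOf x := hc ▸ orderOf_dvd_of_mem_zpowers h
          rw [← hrk] at h1
          exact (Nat.prime_dvd_prime_iff_eq hs hrp).1 (hs.dvd_of_dvd_pow h1)
      exact hpq ((key p hp ((dvd_mul_right p q).trans hdvd)).trans
        (key q hq ((dvd_mul_left q p).trans hdvd)).symm)
    · have hall : ∀ y : G, y ∈ zpowers x := by
        intro y
        by_contra hy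
        have hxy : x ∈ zpowers y := (hd y).resolve_right hy
        have hdv : orderOf x ∣ orderOf y := orderOf_dvd_of_mem_zpowers hxy
        have hne : orderOf x ≠ orderOf y := by
          intro h
          apply hy
          have h1 := zpowers_eq_of_mem_of_dvd hxy (dvd_of_eq h.symm)
          rw [h1]; exact mem_zpowers y
        obtain ⟨c, hc⟩ := hdv
        have hc1 : c ≠ 1 := by rintro rfl; exact hne (by simpa using hc.symm)
        obtain ⟨r, hr⟩ : ∃ r, r = c.minFac := ⟨_, rfl⟩
        have hrp : r.Prime := hr ▸ Nat.minFac_prime hc1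
        have hrc : r ∣ c := hr ▸ Nat.minFac_dvd c
        have hyn : 0 < orderOf y := orderOf_pos y
        have hv : ordProj[r] (orderOf y) ∣ orderOf y := Nat.ordProj_dvd _ _
        obtain ⟨w, hw⟩ : ∃ w, w = y ^ (orderOf y / ordProj[r] (orderOf y)) := ⟨_, rfl⟩
        have hwo : orderOf w = ordProj[r] (orderOf y) := by
          rw [hw]; exact orderOf_pow_div y hv (pow_pos hrp.pos _).ne'
        rcases hd w with h | h
        · have h1 : orderOf x ∣ r ^ (orderOf y).factorization r :=
            hwo ▸ orderOf_dvd_of_mem_zpowers h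
          obtain ⟨i, -, hi⟩ := (Nat.dvd_prime_pow hrp).1 h1
          have hi0 : i ≠ 0 := by
            rintro rfl
            rw [pow_zero, orderOf_eq_one_iff] at hi
            exact hx hi
          apply hpp
          rw [hi]; exact hrp.isPrimePow.pow hi0
        · have h1 : ordProj[r] (orderOf y) ∣ orderOf x := hwo ▸ orderOf_dvd_of_mem_zpowers h
          apply Nat.pow_succ_factorization_not_dvd hyn.ne' hrp
          rw [pow_succ]
          exact (mul_dvd_mul h1 hrc).trans (dvd_of_eq hc.symm)
      have hcard : orderOf x = Nat.card G := by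
        rw [← Nat.card_zpowers]
        have h1 : zpowers x = ⊤ := by rw [Subgroup.eq_top_iff']; exact hall
        rw [h1, Subgroup.card_top]
      exact ⟨x ^ (orderOf x / (p * q)),
        orderOf_pow_div x (hcard ▸ hdvd) (Nat.mul_pos hp.pos hq.pos).ne'⟩

section transfer

variable {H : Type*} [Group H] (e : G ≃ H) (he : ∀ x y : G, adj x y ↔ adj (e x) (e y))
include he

theorem twin_map (x y : G) : twin (e x) (e y) ↔ twin x y := by
  constructor
  · intro h z
    rw [he x z, he y z]; exact h (e z)
  · intro h z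
    obtain ⟨z, rfl⟩ := e.surjective z
    rw [← he x z, ← he y z]; exact h z

theorem dom_map (x : G) : dom (e x) ↔ dom x := by
  constructor
  · intro h z; rw [he]; exact h (e z)
  · intro h z
    obtain ⟨z, rfl⟩ := e.surjective z
    rw [← he]; exact h z

theorem tw_map (x : G) : tw (e x) = e '' tw x := by
  ext w
  obtain ⟨w, rfl⟩ := e.surjective w
  constructor
  · intro h
    exact ⟨w, (twin_map e he x w).1 h, rfl⟩
  · rintro ⟨w', hw', hww⟩
    have h1 : w' = w := e.injective hww
    subst h1
    exact (twin_map e he x w').2 hw'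

theorem ncard_tw_map (x : G) : (tw (e x)).ncard = (tw x).ncard := by
  rw [tw_map e he, Set.ncard_image_of_injective _ e.injective]

theorem isMin_map (p : ℕ) (x : G) : isMin p (e x) ↔ isMin p x := by
  unfold isMin
  rw [dom_map e he, ncard_tw_map e he]
  constructor
  · rintro ⟨h1, h2, h3⟩
    refine ⟨h1, h2, fun z hz hzd hzt => ?_⟩
    have h4 := h3 (e z) ((he x z).1 hz) (fun h => hzd ((dom_map e he z).1 h))
      (fun h => hzt ((twin_map e he x z).1 h))
    rwa [ncard_tw_map e he] at h4
  · rintro ⟨h1, h2, h3⟩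
    refine ⟨h1, h2, fun z hz hzd hzt => ?_⟩
    obtain ⟨z, rfl⟩ := e.surjective z
    rw [ncard_tw_map e he]
    exact h3 z ((he x z).2 hz) (fun h => hzd ((dom_map e he z).2 h))
      (fun h => hzt ((twin_map e he x z).2 h))

theorem psi_map (p q : ℕ) : psi H p q ↔ psi G p q := by
  constructor
  · rintro ⟨a, b, g, ha, hb, hg, hag, hbg⟩
    obtain ⟨a, rfl⟩ := e.surjective a
    obtain ⟨b, rfl⟩ := e.surjective b
    obtain ⟨g, rfl⟩ := e.surjective g
    exact ⟨a, b, g, (isMin_map e he p a).1 ha, (isMin_map e he q b).1 hb,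
      fun h => hg ((dom_map e he g).2 h), (he a g).2 hag, (he b g).2 hbg⟩
  · rintro ⟨a, b, g, ha, hb, hg, hag, hbg⟩
    exact ⟨e a, e b, e g, (isMin_map e he p a).2 ha, (isMin_map e he q b).2 hb,
      fun h => hg ((dom_map e he g).1 h), (he a g).1 hag, (he b g).1 hbg⟩

end transfer

/-- isomorphic power graphs have the same prime graph -/
theorem main {G H : Type*} [Group G] [Finite G] [Group H] [Finite H] (e : G ≃ H)
    (he : ∀ x y : G, (x ∈ zpowers y ∨ y ∈ zpowers x) ↔
      (e x ∈ zpowers (e y) ∨ e y ∈ zpowers (e x)))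
    {p q : ℕ} (hp : p.Prime) (hq : q.Prime) (hpq : p ≠ q) :
    (∃ g : G, orderOf g = p * q) ↔ (∃ h : H, orderOf h = p * q) := by
  have he' : ∀ x y : G, adj x y ↔ adj (e x) (e y) := he
  by_cases hS : ∀ x : G, dom x → x = 1
  · have hS' : ∀ x : H, dom x → x = 1 := by
      intro x hx
      obtain ⟨x, rfl⟩ := e.surjective x
      have h1 : x = 1 := hS x ((dom_map e he' x).1 hx)
      have h2 : e.symm 1 = 1 :=
        hS _ ((dom_map e he' _).1 (by rw [e.apply_symm_apply]; exact dom_one))
      rw [h1, ← h2, e.apply_symm_apply]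
    rw [← psi_iff hS hp hq hpq, ← psi_iff hS' hp hq hpq, psi_map e he']
  · push Not at hS
    obtain ⟨x, hxd, hx1⟩ := hS
    have hH : ∃ y : H, y ≠ 1 ∧ dom y := by
      by_cases h : e x = 1
      · refine ⟨e 1, ?_, (dom_map e he' 1).2 dom_one⟩
        intro h1
        exact hx1 (e.injective (h.trans h1.symm))
      · exact ⟨e x, h, (dom_map e he' x).2 hxd⟩
    obtain ⟨y, hy1, hyd⟩ := hH
    rw [exists_orderOf_iff_of_dom hx1 hxd hp hq hpq, exists_orderOf_iff_of_dom hy1 hyd hp hq hpq,
      Nat.card_congr e]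

end Cfsg.Agent.Lib.Helper58.PowerGraph
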